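/-
Maps of a subsystem extend over a normal subgroup `Q` of `F`, acting trivially on `Q` modulo `Q ∩ U`.
-/
import Cfsg.Agent.Lib.FocCent.Main
import Mathlib

set_option autoImplicit false

namespace Cfsg.Agent.Lib.Layer

open Cfsg Cfsg.FusionSystem Cfsg.Agent.Lib.Fusion Cfsg.Agent.Lib.FocCent

universe u

variable {Ω : Type u} [Group Ω] {S : Subgroup Ω} {F : FusionSystem S} {Q Q₀ : Subgroup Ω}

/-- The extension property. -/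
def Adm (F : FusionSystem S) (Q Q₀ P : Subgroup Ω) (φ : P →* Ω) : Prop :=
  ∃ ψ ∈ F.Hom (P ⊔ Q), (∀ x : P, ψ (Subgroup.inclusion le_sup_left x) = φ x) ∧
    ∀ q : Q, (q : Ω)⁻¹ * ψ (Subgroup.inclusion le_sup_right q) ∈ Q₀

theorem sc_val (hQ₀ : F.StronglyClosed Q₀) {P : Subgroup Ω} {ψ : P →* Ω} (hψ : ψ ∈ F.Hom P) (x : P) (hx : (x : Ω) ∈ Q₀) :
    ψ x ∈ Q₀ := by
  have hle : P ⊓ Q₀ ≤ P := inf_le_left
  exact hQ₀.2 (P ⊓ Q₀) inf_le_right _ (res_mem F hψ hle) ⟨x, x.2, hx⟩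

theorem Adm.comp (hQ₀ : F.StronglyClosed Q₀) (hle : Q₀ ≤ Q) {P R : Subgroup Ω} {φ : P →* Ω} {φ₂ : R →* Ω}
    (h₁ : Adm F Q Q₀ P φ) (h₂ : Adm F Q Q₀ R φ₂) (h : ∀ x : P, φ x ∈ R) : Adm F Q Q₀ P (φ₂.comp (φ.codRestrict R h)) := by
  obtain ⟨ψ₁, hψ₁, h₁a, h₁b⟩ := h₁
  obtain ⟨ψ₂, hψ₂, h₂a, h₂b⟩ := h₂
  have h₁a' : ∀ (x : Ω) (hx : x ∈ P), ψ₁ ⟨x, Subgroup.mem_sup_left hx⟩ = φ ⟨x, hx⟩ := fun x hx => h₁a ⟨x, hx⟩
  have h₁b' : ∀ (q : Ω) (hq : q ∈ Q), q⁻¹ * ψ₁ ⟨q, Subgroup.mem_sup_right hq⟩ ∈ Q₀ := fun q hq => h₁b ⟨q, hq⟩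
  have h₂b' : ∀ (q : Ω) (hq : q ∈ Q), q⁻¹ * ψ₂ ⟨q, Subgroup.mem_sup_right hq⟩ ∈ Q₀ := fun q hq => h₂b ⟨q, hq⟩
  have hQv : ∀ (q : Ω) (hq : q ∈ Q), ψ₁ ⟨q, Subgroup.mem_sup_right hq⟩ ∈ Q := fun q hq => by
    have := Q.mul_mem hq (hle (h₁b' q hq))
    simpa using this
  have hval : ∀ y, ψ₁ y ∈ R ⊔ Q := by
    refine map_sup_mem (fun x hx => ?_) (fun q hq => ?_)
    · rw [h₁a' x hx]
      exact Subgroup.mem_sup_left (h _)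
    · exact Subgroup.mem_sup_right (hQv q hq)
  refine ⟨ψ₂.comp (ψ₁.codRestrict _ hval), F.comp_mem hψ₁ hψ₂ hval, fun x => ?_, fun q => ?_⟩
  · show ψ₂ ⟨ψ₁ ⟨x, Subgroup.mem_sup_left x.2⟩, _⟩ = φ₂ ⟨φ x, h x⟩
    rw [← h₂a ⟨φ x, h x⟩]
    congr 1
    exact Subtype.ext (h₁a' x x.2)
  · show (q : Ω)⁻¹ * ψ₂ ⟨ψ₁ ⟨q, Subgroup.mem_sup_right q.2⟩, _⟩ ∈ Q₀
    set z := (q : Ω)⁻¹ * ψ₁ ⟨q, Subgroup.mem_sup_right q.2⟩ with hz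
    have hzQ₀ : z ∈ Q₀ := h₁b' q q.2
    have e : (⟨ψ₁ ⟨q, Subgroup.mem_sup_right q.2⟩, hval _⟩ : ↥(R ⊔ Q)) = ⟨q, Subgroup.mem_sup_right q.2⟩ * ⟨z, Subgroup.mem_sup_right (hle hzQ₀)⟩ := by
      apply Subtype.ext
      show ψ₁ ⟨q, Subgroup.mem_sup_right q.2⟩ = (q : Ω) * z
      rw [hz]
      group
    rw [e, map_mul, ← mul_assoc]
    exact Q₀.mul_mem (h₂b' q q.2) (sc_val hQ₀ hψ₂ ⟨z, Subgroup.mem_sup_right (hle hzQ₀)⟩ hzQ₀)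

theorem Adm.res {P P' : Subgroup Ω} {φ : P' →* Ω} (h : Adm F Q Q₀ P' φ) (hle : P ≤ P') :
    Adm F Q Q₀ P (φ.comp (Subgroup.inclusion hle)) := by
  obtain ⟨ψ, hψ, ha, hb⟩ := h
  have hs : P ⊔ Q ≤ P' ⊔ Q := sup_le_sup_right hle Q
  exact ⟨ψ.comp (Subgroup.inclusion hs), res_mem F hψ hs, fun x => ha (Subgroup.inclusion hle x), fun q => hb q⟩

theorem adm_conj {P : Subgroup Ω} (hQS : Q ≤ S) (hP : P ≤ S) {g : Ω} (hgS : g ∈ S) (hg : ∀ q ∈ Q, q⁻¹ * (g * q * g⁻¹) ∈ Q₀) :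
    Adm F Q Q₀ P (conjHom P g) :=
  ⟨conjHom (P ⊔ Q) g, F.conj_mem (sup_le hP hQS) hgS, fun _ => rfl, fun q => hg q q.2⟩

/-- Inverses. -/
theorem Adm.inv [Finite S] (hQS : Q ≤ S) (hle : Q₀ ≤ Q) {P R : Subgroup Ω} {φ : P →* Ω} {θ : R →* Ω} (h : Adm F Q Q₀ P φ)
    (hPR : ∀ y : R, ∃ x : P, φ x = y) (hRP : ∀ x : P, φ x ∈ R) (hθ : ∀ x : P, θ ⟨φ x, hRP x⟩ = x) : Adm F Q Q₀ R θ := by
  obtain ⟨ψ, hψ, ha, hb⟩ := h
  haveI : Finite Q := finite_of_le hQS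
  have ha' : ∀ (x : Ω) (hx : x ∈ P), ψ ⟨x, Subgroup.mem_sup_left hx⟩ = φ ⟨x, hx⟩ := fun x hx => ha ⟨x, hx⟩
  have hb' : ∀ (q : Ω) (hq : q ∈ Q), q⁻¹ * ψ ⟨q, Subgroup.mem_sup_right hq⟩ ∈ Q₀ := fun q hq => hb ⟨q, hq⟩
  have hQv : ∀ (q : Ω) (hq : q ∈ Q), ψ ⟨q, Subgroup.mem_sup_right hq⟩ ∈ Q := fun q hq => by
    have := Q.mul_mem hq (hle (hb' q hq))
    simpa using this
  let f : Q → Q := fun q => ⟨_, hQv q q.2⟩
  have hf : Function.Injective f := by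
    intro a c hac
    have h1 := hom_inj F hψ (congrArg Subtype.val hac)
    exact Subtype.ext (congrArg (fun z : ↥(P ⊔ Q) => (z : Ω)) h1)
  have hsurj := Finite.surjective_of_injective hf
  obtain ⟨ψ', hψ', hv⟩ := F.inv_mem hψ
  have hle' : R ⊔ Q ≤ ψ.range := by
    refine sup_le (fun y hy => ?_) (fun q hq => ?_)
    · obtain ⟨x, hx⟩ := hPR ⟨y, hy⟩
      exact ⟨⟨x, Subgroup.mem_sup_left x.2⟩, (ha' x x.2).trans hx⟩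
    · obtain ⟨q', hq'⟩ := hsurj ⟨q, hq⟩
      exact ⟨⟨q', Subgroup.mem_sup_right q'.2⟩, congrArg Subtype.val hq'⟩
  refine ⟨ψ'.comp (Subgroup.inclusion hle'), res_mem F hψ' hle', fun y => ?_, fun q => ?_⟩
  · obtain ⟨x, hx⟩ := hPR y
    have e : (Subgroup.inclusion hle' (Subgroup.inclusion le_sup_left y) : ψ.range) = ⟨ψ ⟨x, Subgroup.mem_sup_left x.2⟩, ⟨_, rfl⟩⟩ :=
      Subtype.ext ((ha' x x.2).trans hx).symm
    show ψ' (Subgroup.inclusion hle' (Subgroup.inclusion le_sup_left y)) = _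
    rw [e, hv]
    have e2 : y = ⟨φ x, hRP x⟩ := Subtype.ext hx.symm
    rw [e2, hθ]
  · obtain ⟨q', hq'⟩ := hsurj q
    have hq'' : ψ ⟨q', Subgroup.mem_sup_right q'.2⟩ = q := congrArg Subtype.val hq'
    have e : (Subgroup.inclusion hle' (Subgroup.inclusion le_sup_right q) : ψ.range) = ⟨ψ ⟨q', Subgroup.mem_sup_right q'.2⟩, ⟨_, rfl⟩⟩ :=
      Subtype.ext hq''.symm
    show (q : Ω)⁻¹ * ψ' (Subgroup.inclusion hle' (Subgroup.inclusion le_sup_right q)) ∈ Q₀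
    rw [e, hv]
    have h1 := Q₀.inv_mem (hb' q' q'.2)
    rw [hq''] at h1
    have e3 : ((q' : Ω)⁻¹ * (q : Ω))⁻¹ = (q : Ω)⁻¹ * q' := by group
    rw [e3] at h1
    exact h1

/-- Automorphisms of `P` with the extension property form a group. -/
def admAut [Finite S] (hQS : Q ≤ S) (hQ₀ : F.StronglyClosed Q₀) (hle : Q₀ ≤ Q) (P : Subgroup Ω) (hP : P ≤ S) : Subgroup (MulAut P) where
  carrier := {g | Adm F Q Q₀ P (P.subtype.comp g.toMonoidHom)}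
  mul_mem' := by
    intro a c ha hc
    have := Adm.comp hQ₀ hle hc ha (h := fun x => (c.toMonoidHom x).2)
    exact this
  one_mem' := by
    have := adm_conj (F := F) (Q := Q) (Q₀ := Q₀) (P := P) hQS hP S.one_mem (fun q _ => by
      simp [Q₀.one_mem])
    obtain ⟨ψ, hψ, ha, hb⟩ := this
    refine ⟨ψ, hψ, fun x => ?_, hb⟩
    rw [ha]
    simp [conjHom]
  inv_mem' := by
    intro a ha
    refine Adm.inv hQS hle (θ := P.subtype.comp (a⁻¹ : MulAut P).toMonoidHom) ha (fun y => ⟨a⁻¹ y, ?_⟩) (fun x => (a x).2) (fun x => ?_)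
    · simp
    · simp

theorem mem_admAut [Finite S] {hQS : Q ≤ S} {hQ₀ : F.StronglyClosed Q₀} {hle : Q₀ ≤ Q} {P : Subgroup Ω} {hP : P ≤ S} {g : MulAut P} :
    g ∈ admAut (F := F) hQS hQ₀ hle P hP ↔ Adm F Q Q₀ P (P.subtype.comp g.toMonoidHom) := Iff.rfl

/-- An automorphism of `P` extends to an automorphism of `P ⊔ Q` preserving `Q`. -/
theorem exists_lift_normal [Finite S] (hQ : F.IsNormal Q) {P : Subgroup Ω} (hP : P ≤ S) {f : MulAut P} (hf : f ∈ F.autGroup P) :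
    ∃ B : MulAut ↥(P ⊔ Q), B ∈ F.autGroup (P ⊔ Q) ∧
      (∀ x : P, ((B ⟨x, Subgroup.mem_sup_left x.2⟩ : ↥(P ⊔ Q)) : Ω) = (f x : P)) ∧
      (∀ q : Q, ((B ⟨q, Subgroup.mem_sup_right q.2⟩ : ↥(P ⊔ Q)) : Ω) ∈ Q) := by
  have hXS : P ⊔ Q ≤ S := sup_le hP hQ.1
  haveI : Finite ↥(P ⊔ Q) := finite_of_le hXS
  have hφ : P.subtype.comp f.toMonoidHom ∈ F.Hom P := (mem_autGroup_iff hP).1 hf
  obtain ⟨ψ, hψ, hv, hm⟩ := hQ.2 P _ hφ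
  have hv' : ∀ (x : Ω) (hx : x ∈ P), ψ ⟨x, Subgroup.mem_sup_left hx⟩ = (f ⟨x, hx⟩ : P) := fun x hx => hv ⟨x, hx⟩
  have hQv : ∀ (q : Ω) (hq : q ∈ Q), ψ ⟨q, Subgroup.mem_sup_right hq⟩ ∈ Q := fun q hq => by
    have h5 : ψ ⟨q, Subgroup.mem_sup_right hq⟩ ∈ (Q.subgroupOf (P ⊔ Q)).map ψ :=
      ⟨⟨q, Subgroup.mem_sup_right hq⟩, Subgroup.mem_subgroupOf.2 hq, rfl⟩
    rwa [hm] at h5
  have hval : ∀ y, ψ y ∈ P ⊔ Q := by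
    refine map_sup_mem (fun x hx => ?_) (fun q hq => ?_)
    · rw [hv' x hx]
      exact Subgroup.mem_sup_left (f _).2
    · exact Subgroup.mem_sup_right (hQv q hq)
  have hinj : Function.Injective (ψ.codRestrict _ hval) := fun a c hac => hom_inj F hψ (congrArg Subtype.val hac)
  refine ⟨MulEquiv.ofBijective (ψ.codRestrict _ hval) ⟨hinj, Finite.surjective_of_injective hinj⟩,
    (mem_autGroup_iff hXS).2 (hom_congr F hψ fun x => rfl), fun x => hv' x x.2, fun q => hQv q q.2⟩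

/-- The automorphisms of `P` lifting to `P ⊔ Q` trivially on `Q` modulo `Q₀`. -/
def gamQ [Finite S] (F : FusionSystem S) (hQS : Q ≤ S) (hle : Q₀ ≤ Q) (P : Subgroup Ω) (hP : P ≤ S) : Subgroup (MulAut P) where
  carrier := {g | ∃ β : MulAut ↥(P ⊔ Q), β ∈ F.autGroup (P ⊔ Q) ∧
    (∀ x : P, ((β ⟨x, Subgroup.mem_sup_left x.2⟩ : ↥(P ⊔ Q)) : Ω) = (g x : P)) ∧
    ∀ q : Q, (q : Ω)⁻¹ * ((β ⟨q, Subgroup.mem_sup_right q.2⟩ : ↥(P ⊔ Q)) : Ω) ∈ Q₀}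
  mul_mem' := by
    rintro g₁ g₂ ⟨β₁, h₁, h₁v, h₁w⟩ ⟨β₂, h₂, h₂v, h₂w⟩
    refine ⟨β₁ * β₂, Subgroup.mul_mem _ h₁ h₂, fun v => ?_, fun q => ?_⟩
    · rw [MulAut.mul_apply, MulAut.mul_apply]
      have e : (β₂ ⟨v, Subgroup.mem_sup_left v.2⟩ : ↥(P ⊔ Q)) = ⟨(g₂ v : P), Subgroup.mem_sup_left (g₂ v).2⟩ := Subtype.ext (h₂v v)
      rw [e]
      exact h₁v _
    · rw [MulAut.mul_apply]
      have hq2 : ((β₂ ⟨q, Subgroup.mem_sup_right q.2⟩ : ↥(P ⊔ Q)) : Ω) ∈ Q := by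
        have := Q.mul_mem q.2 (hle (h₂w q))
        simpa using this
      have h3 := h₁w ⟨_, hq2⟩
      have e : (q : Ω)⁻¹ * ((β₁ (β₂ ⟨q, Subgroup.mem_sup_right q.2⟩) : ↥(P ⊔ Q)) : Ω) =
          ((q : Ω)⁻¹ * ((β₂ ⟨q, Subgroup.mem_sup_right q.2⟩ : ↥(P ⊔ Q)) : Ω)) *
            (((β₂ ⟨q, Subgroup.mem_sup_right q.2⟩ : ↥(P ⊔ Q)) : Ω)⁻¹ * ((β₁ (β₂ ⟨q, Subgroup.mem_sup_right q.2⟩) : ↥(P ⊔ Q)) : Ω)) := by
        group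
      rw [e]
      exact Q₀.mul_mem (h₂w q) h3
  one_mem' := by
    refine ⟨1, Subgroup.one_mem _, fun v => rfl, fun w => ?_⟩
    rw [MulAut.one_apply]
    show (w : Ω)⁻¹ * (w : Ω) ∈ Q₀
    rw [inv_mul_cancel]
    exact Q₀.one_mem
  inv_mem' := by
    rintro g ⟨β, h, hv, hw⟩
    haveI : Finite Q := finite_of_le hQS
    refine ⟨β⁻¹, Subgroup.inv_mem _ h, fun v => ?_, fun q => ?_⟩
    · have e : (β ⟨((g⁻¹ : MulAut P) v : P), Subgroup.mem_sup_left ((g⁻¹ : MulAut P) v).2⟩ : ↥(P ⊔ Q)) = ⟨v, Subgroup.mem_sup_left v.2⟩ := by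
        apply Subtype.ext
        rw [hv]
        simp
      have e2 : ((β⁻¹ : MulAut ↥(P ⊔ Q)) ⟨v, Subgroup.mem_sup_left v.2⟩ : ↥(P ⊔ Q)) = ⟨((g⁻¹ : MulAut P) v : P), Subgroup.mem_sup_left ((g⁻¹ : MulAut P) v).2⟩ := by
        rw [← e]
        simp
      rw [e2]
    · have hQv : ∀ q : Q, ((β ⟨q, Subgroup.mem_sup_right q.2⟩ : ↥(P ⊔ Q)) : Ω) ∈ Q := fun q => by
        have := Q.mul_mem q.2 (hle (hw q))
        simpa using this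
      let f : Q → Q := fun q => ⟨_, hQv q⟩
      have hf : Function.Injective f := by
        intro a c hac
        have h1 := β.injective (Subtype.ext (congrArg (fun z : Q => (z : Ω)) hac))
        exact Subtype.ext (congrArg (fun z : ↥(P ⊔ Q) => (z : Ω)) h1)
      obtain ⟨q', hq'⟩ := (Finite.surjective_of_injective hf) q
      have hq'' : (β ⟨q', Subgroup.mem_sup_right q'.2⟩ : ↥(P ⊔ Q)) = ⟨q, Subgroup.mem_sup_right q.2⟩ :=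
        Subtype.ext (congrArg (fun z : Q => (z : Ω)) hq')
      have e : ((β⁻¹ : MulAut ↥(P ⊔ Q)) ⟨q, Subgroup.mem_sup_right q.2⟩ : ↥(P ⊔ Q)) = ⟨q', Subgroup.mem_sup_right q'.2⟩ := by
        rw [← hq'']
        simp
      rw [e]
      have h1 := Q₀.inv_mem (hw q')
      rw [hq''] at h1
      have e3 : ((q' : Ω)⁻¹ * (q : Ω))⁻¹ = (q : Ω)⁻¹ * q' := by group
      rw [e3] at h1
      exact h1

theorem gamQ_le_admAut [Finite S] {hQS : Q ≤ S} {hQ₀ : F.StronglyClosed Q₀} {hle : Q₀ ≤ Q} {P : Subgroup Ω} {hP : P ≤ S} :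
    gamQ F hQS hle P hP ≤ admAut (F := F) hQS hQ₀ hle P hP := by
  rintro g ⟨β, h, hv, hw⟩
  have hXS : P ⊔ Q ≤ S := sup_le hP hQS
  exact ⟨_, (mem_autGroup_iff hXS).1 h, fun x => hv x, fun q => hw q⟩

theorem gamQ_normal [Finite S] (hQ : F.IsNormal Q) (hQ₀ : F.StronglyClosed Q₀) (hle : Q₀ ≤ Q) {P : Subgroup Ω} (hP : P ≤ S)
    {f g : MulAut P} (hf : f ∈ F.autGroup P) (hg : g ∈ gamQ F hQ.1 hle P hP) : f * g * f⁻¹ ∈ gamQ F hQ.1 hle P hP := by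
  have hXS : P ⊔ Q ≤ S := sup_le hP hQ.1
  haveI : Finite Q := finite_of_le hQ.1
  obtain ⟨φ, hφ, hφv, hφQ⟩ := exists_lift_normal hQ hP hf
  obtain ⟨β, hβ, hβv, hβw⟩ := hg
  refine ⟨φ * β * φ⁻¹, Subgroup.mul_mem _ (Subgroup.mul_mem _ hφ hβ) (Subgroup.inv_mem _ hφ), fun v => ?_, fun q => ?_⟩
  · have e0 : (φ ⟨((f⁻¹ : MulAut P) v : P), Subgroup.mem_sup_left ((f⁻¹ : MulAut P) v).2⟩ : ↥(P ⊔ Q)) = ⟨v, Subgroup.mem_sup_left v.2⟩ := by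
      apply Subtype.ext
      rw [hφv]
      simp
    have e2 : ((φ⁻¹ : MulAut ↥(P ⊔ Q)) ⟨v, Subgroup.mem_sup_left v.2⟩ : ↥(P ⊔ Q)) = ⟨((f⁻¹ : MulAut P) v : P), Subgroup.mem_sup_left ((f⁻¹ : MulAut P) v).2⟩ := by
      rw [← e0]
      simp
    rw [MulAut.mul_apply, MulAut.mul_apply, e2]
    have e3 : (β ⟨((f⁻¹ : MulAut P) v : P), Subgroup.mem_sup_left ((f⁻¹ : MulAut P) v).2⟩ : ↥(P ⊔ Q)) = ⟨(g ((f⁻¹ : MulAut P) v) : P), Subgroup.mem_sup_left (g ((f⁻¹ : MulAut P) v)).2⟩ :=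
      Subtype.ext (hβv _)
    rw [e3]
    exact hφv _
  · let f₁ : Q → Q := fun q => ⟨_, hφQ q⟩
    have hf₁ : Function.Injective f₁ := by
      intro a c hac
      have h1 := φ.injective (Subtype.ext (congrArg (fun z : Q => (z : Ω)) hac))
      exact Subtype.ext (congrArg (fun z : ↥(P ⊔ Q) => (z : Ω)) h1)
    obtain ⟨q₁, hq₁⟩ := (Finite.surjective_of_injective hf₁) q
    have hq₁' : (φ ⟨q₁, Subgroup.mem_sup_right q₁.2⟩ : ↥(P ⊔ Q)) = ⟨q, Subgroup.mem_sup_right q.2⟩ :=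
      Subtype.ext (congrArg (fun z : Q => (z : Ω)) hq₁)
    have e : ((φ⁻¹ : MulAut ↥(P ⊔ Q)) ⟨q, Subgroup.mem_sup_right q.2⟩ : ↥(P ⊔ Q)) = ⟨q₁, Subgroup.mem_sup_right q₁.2⟩ := by
      rw [← hq₁']
      simp
    rw [MulAut.mul_apply, MulAut.mul_apply, e]
    have h1 := hβw q₁
    set z : Ω := (q₁ : Ω)⁻¹ * ((β ⟨q₁, Subgroup.mem_sup_right q₁.2⟩ : ↥(P ⊔ Q)) : Ω) with hz
    have h2 : (β ⟨q₁, Subgroup.mem_sup_right q₁.2⟩ : ↥(P ⊔ Q)) = ⟨q₁, Subgroup.mem_sup_right q₁.2⟩ * ⟨z, Subgroup.mem_sup_right (hle h1)⟩ := by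
      apply Subtype.ext
      show ((β ⟨q₁, Subgroup.mem_sup_right q₁.2⟩ : ↥(P ⊔ Q)) : Ω) = (q₁ : Ω) * z
      rw [hz]
      group
    rw [h2, map_mul, hq₁']
    show (q : Ω)⁻¹ * ((q : Ω) * ((φ ⟨z, Subgroup.mem_sup_right (hle h1)⟩ : ↥(P ⊔ Q)) : Ω)) ∈ Q₀
    rw [inv_mul_cancel_left]
    have hφm : (P ⊔ Q).subtype.comp φ.toMonoidHom ∈ F.Hom (P ⊔ Q) := (mem_autGroup_iff hXS).1 hφ
    exact sc_val hQ₀ hφm ⟨z, Subgroup.mem_sup_right (hle h1)⟩ h1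

end Cfsg.Agent.Lib.Layer
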