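/-
Maps of a normal subsystem extend over a normal subgroup `Q`, acting trivially on `Q` modulo `Q ∩ U`.
-/
import Cfsg.Agent.Lib.Layer.Adm
import Mathlib

set_option autoImplicit false

namespace Cfsg.Agent.Lib.Layer

open Cfsg Cfsg.FusionSystem Cfsg.Agent.Lib.Fusion Cfsg.Agent.Lib.FocCent

universe u

theorem exists_pp_power {G H : Type*} [Group G] [Group H] [Finite G] {p : ℕ} (hp : p.Prime) (x : G) {g : H}
    (hg : (orderOf g).Coprime p) : ∃ m : ℕ, (orderOf (x ^ m)).Coprime p ∧ g ^ m = g := by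
  have hN : orderOf x ≠ 0 := (orderOf_pos x).ne'
  obtain ⟨a, k, hk, hak⟩ := Nat.exists_eq_pow_mul_and_not_dvd hN p hp.ne_one
  have hcop : (p ^ a).Coprime (orderOf g) := Nat.Coprime.pow_left _ (Nat.Coprime.symm hg)
  obtain ⟨w, hw⟩ := exists_pow_eq_self_of_coprime hcop
  refine ⟨p ^ a * w, ?_, by rw [pow_mul, hw]⟩
  have h1 : (x ^ (p ^ a * w)) ^ k = 1 := by
    rw [← pow_mul]
    have e : p ^ a * w * k = orderOf x * w := by rw [hak]; ring
    rw [e, pow_mul, pow_orderOf_eq_one, one_pow]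
  have h2 := orderOf_dvd_of_pow_eq_one h1
  have h3 : Nat.Coprime k p := Nat.Coprime.symm ((Nat.Prime.coprime_iff_not_dvd hp).2 hk)
  exact Nat.Coprime.coprime_dvd_left h2 h3

/-- A `p'`-automorphism stabilizing a chain on a `p`-group acts trivially modulo the bottom term. -/
theorem stable_coprime {X : Type*} [Group X] {p : ℕ} {A A₀ : Subgroup X} (hp : p.Prime) (hA : IsPGroup p A)
    (hn : ∀ a ∈ A, ∀ n ∈ A₀, a * n * a⁻¹ ∈ A₀) (B : MulAut X) (hBA₀ : ∀ n ∈ A₀, B n ∈ A₀) (hBA : ∀ a ∈ A, B a ∈ A)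
    (hB : ∀ a ∈ A, (a⁻¹ * B a)⁻¹ * B (a⁻¹ * B a) ∈ A₀) (hord : (orderOf B).Coprime p) :
    ∀ a ∈ A, a⁻¹ * B a ∈ A₀ := by
  intro a ha
  set r : X := a⁻¹ * B a with hrdef
  have hrA : r ∈ A := A.mul_mem (A.inv_mem ha) (hBA a ha)
  have hn₀ : ∀ (n : ℕ), ∀ y ∈ A₀, (B ^ n) y ∈ A₀ := by
    intro n
    induction n with
    | zero => intro y hy; simpa using hy
    | succ n ih =>
      intro y hy
      rw [pow_succ', MulAut.mul_apply]
      exact hBA₀ _ (ih y hy)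
  have hr : ∀ n : ℕ, r⁻¹ * (B ^ n) r ∈ A₀ := by
    intro n
    induction n with
    | zero => simp [A₀.one_mem]
    | succ n ih =>
      rw [pow_succ', MulAut.mul_apply]
      have e : (B ^ n) r = r * (r⁻¹ * (B ^ n) r) := by group
      rw [e, map_mul, ← mul_assoc]
      exact A₀.mul_mem (hB a ha) (hBA₀ _ ih)
  have hrn : ∀ n : ℕ, (r ^ n)⁻¹ * (a⁻¹ * (B ^ n) a) ∈ A₀ := by
    intro n
    induction n with
    | zero => simp [A₀.one_mem]
    | succ n ih =>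
      have e1 : (B ^ (n + 1)) a = (B ^ n) a * (B ^ n) r := by
        rw [pow_succ, MulAut.mul_apply, ← map_mul, hrdef]
        congr 1
        group
      rw [e1]
      have h3 := hn _ (A.inv_mem hrA) _ ih
      have e2 : (r ^ (n + 1))⁻¹ * (a⁻¹ * ((B ^ n) a * (B ^ n) r)) =
          (r⁻¹ * ((r ^ n)⁻¹ * (a⁻¹ * (B ^ n) a)) * r⁻¹⁻¹) * (r⁻¹ * (B ^ n) r) := by
        rw [pow_succ]
        group
      rw [e2]
      exact A₀.mul_mem h3 (hr n)
  have h1 := hrn (orderOf B)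
  rw [pow_orderOf_eq_one] at h1
  have h2 : (r ^ orderOf B)⁻¹ ∈ A₀ := by simpa using h1
  have h3 : r ^ orderOf B ∈ A₀ := by simpa using A₀.inv_mem h2
  obtain ⟨k, hk⟩ := hA ⟨r, hrA⟩
  have hk' : r ^ p ^ k = 1 := congrArg Subtype.val hk
  have hd : orderOf r ∣ p ^ k := orderOf_dvd_of_pow_eq_one hk'
  have hc : (orderOf B).Coprime (orderOf r) := Nat.Coprime.coprime_dvd_right hd (Nat.Coprime.pow_right k hord)
  obtain ⟨w, hw⟩ := exists_pow_eq_self_of_coprime hc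
  rw [← hw]
  exact A₀.pow_mem h3 w

variable {Ω : Type u} [Group Ω] {S U : Subgroup Ω} {F : FusionSystem S} {D : FusionSystem U} {Q : Subgroup Ω} {p : ℕ} [Fact p.Prime]

theorem aut_normal [Finite S] (hD : D.IsInvariantIn F) {a g : MulAut U} (ha : a ∈ F.autGroup U) (hg : g ∈ D.autGroup U) :
    a * g * a⁻¹ ∈ D.autGroup U := by
  obtain ⟨-, hsc, hinv, -⟩ := hD
  have hUS := hsc.1
  haveI : Finite U := finite_of_le hUS
  have hm : U.subtype.comp g.toMonoidHom ∈ D.Hom U := (mem_autGroup_iff le_rfl).1 hg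
  obtain ⟨χ, hχ, hχv⟩ := hinv U le_rfl _ hm a ha
  have hVU : (U.subgroupOf U).map (U.subtype.comp a.toMonoidHom) = U := by
    ext y
    constructor
    · rintro ⟨u, -, rfl⟩
      exact (a u).2
    · intro hy
      exact ⟨a⁻¹ ⟨y, hy⟩, Subgroup.mem_subgroupOf.2 (a⁻¹ ⟨y, hy⟩).2, by simp⟩
  have key : ∀ (V : Subgroup Ω), V = U → ∀ χ ∈ D.Hom V, (∀ (x : U) (hV : ((a x : U) : Ω) ∈ V), χ ⟨_, hV⟩ = ((a (g x) : U) : Ω)) →
      a * g * a⁻¹ ∈ D.autGroup U := by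
    rintro V rfl χ hχ hv
    refine (mem_autGroup_iff le_rfl).2 (hom_congr D hχ fun y => ?_)
    have h1 := hv (a⁻¹ y) (by simp)
    have e : (⟨((a (a⁻¹ y) : V) : Ω), by simp⟩ : V) = y := by simp
    rw [e] at h1
    rw [h1]
    rfl
  exact key _ hVU χ hχ (fun x hV => hχv x (g x).2 hV)

theorem top_fn [Finite S] (hUS : U ≤ S) : D.IsFullyNormalized U := by
  haveI : Finite U := finite_of_le hUS
  exact isFullyNormalized_of_normalizerIn_eq le_rfl (inf_eq_left.2 Subgroup.le_normalizer)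

/-- A `p`-element of `Aut_D(U)` is inner. -/
theorem inner_of_pElt [Finite S] (hUS : U ≤ S) (hUp : IsPGroup p U) (hDs : D.IsSaturated p) {ρ : MulAut U} (hρ : ρ ∈ D.autGroup U)
    {k : ℕ} (hk : ρ ^ (p ^ k) = 1) : ρ ∈ autInducedBy U U := by
  haveI : Finite U := finite_of_le hUS
  haveI : Finite (MulAut U) := finite_mulAut _
  obtain ⟨-, V, hV⟩ := IsSat.fullyAutomized_of_fullyNormalized hUp hDs (top_fn (D := D) hUS)
  have hsyl : IsSylowIn p (autInducedBy U U) (D.autGroup U) := ⟨V, hV⟩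
  have hWp : IsPGroup p (Subgroup.zpowers ρ) := by
    rintro ⟨y, n, rfl⟩
    refine ⟨k, Subtype.ext ?_⟩
    show (ρ ^ n) ^ (p ^ k) = 1
    rw [← zpow_natCast, ← zpow_mul, mul_comm, zpow_mul, zpow_natCast, hk, one_zpow]
  obtain ⟨β, hβ, hβv⟩ := IsSylowIn.exists_conj_le hsyl hWp (Subgroup.zpowers_le.2 hρ)
  obtain ⟨u, hu, huv⟩ := mem_autInducedBy_iff.1 (hβv ρ (Subgroup.mem_zpowers ρ))
  refine mem_autInducedBy_iff.2 ⟨((β⁻¹ : MulAut U) ⟨u, hu⟩ : U), ((β⁻¹ : MulAut U) ⟨u, hu⟩).2, fun x => ?_⟩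
  have h1 := huv (β x)
  have h2 : (β * ρ * β⁻¹) (β x) = β (ρ x) := by simp [MulAut.mul_apply]
  rw [h2] at h1
  have h3 : β (ρ x) = ⟨u, hu⟩ * β x * (⟨u, hu⟩ : U)⁻¹ := Subtype.ext h1
  have h4 : ρ x = (β⁻¹ : MulAut U) ⟨u, hu⟩ * x * ((β⁻¹ : MulAut U) ⟨u, hu⟩)⁻¹ := by
    apply β.injective
    rw [h3, map_mul, map_mul, map_inv]
    simp
  rw [h4]
  rfl

theorem inf_stronglyClosed (hQ : F.StronglyClosed Q) (hU : F.StronglyClosed U) : F.StronglyClosed (Q ⊓ U) := by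
  refine ⟨inf_le_left.trans hQ.1, fun R hR φ hφ x => ?_⟩
  exact ⟨hQ.2 R (hR.trans inf_le_left) φ hφ x, hU.2 R (hR.trans inf_le_right) φ hφ x⟩

theorem comm_mem_inf (hQ : F.IsNormal Q) (hsc : F.StronglyClosed U) {g q : Ω} (hg : g ∈ U) (hq : q ∈ Q) :
    q⁻¹ * (g * q * g⁻¹) ∈ Q ⊓ U := by
  have hQc := IsNormal.stronglyClosed hQ
  have hgS := hsc.1 hg
  have hqS := hQ.1 hq
  refine ⟨Q.mul_mem (Q.inv_mem hq) (T_normal hQc g hgS q hq), ?_⟩
  have e : q⁻¹ * (g * q * g⁻¹) = (q⁻¹ * g * q⁻¹⁻¹) * g⁻¹ := by group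
  rw [e]
  exact U.mul_mem (T_normal hsc _ (S.inv_mem hqS) g hg) (U.inv_mem hg)

/-- The top level. -/
theorem top_level [Finite S] (hS : IsPGroup p S) (hQ : F.IsNormal Q) (hD : D.IsNormalIn F p) {g : MulAut U} (hg : g ∈ D.autGroup U)
    (hord : (orderOf g).Coprime p) : Adm F Q (Q ⊓ U) U (U.subtype.comp g.toMonoidHom) := by
  have hp := (Fact.out : p.Prime)
  obtain ⟨⟨hDs, -, hIn⟩, hN1⟩ := hD
  have hsc : F.StronglyClosed U := hIn.2.1
  have hUS := hsc.1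
  have hQS := hQ.1
  have hQc := IsNormal.stronglyClosed hQ
  have hQ₀c : F.StronglyClosed (Q ⊓ U) := inf_stronglyClosed hQc hsc
  haveI : Finite U := finite_of_le hUS
  haveI : Finite Q := finite_of_le hQS
  have hUp : IsPGroup p U := hS.to_le hUS
  obtain ⟨β, hβ, hβv, hβc⟩ := hN1 g hg
  have hWS : U ⊔ centralizerIn S U ≤ S := WW_le hUS
  obtain ⟨B₀, hB₀, hB₀v, hB₀Q⟩ := exists_lift_normal hQ hWS hβ
  let X : Subgroup Ω := U ⊔ centralizerIn S U ⊔ Q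
  have hXS : X ≤ S := sup_le hWS hQS
  haveI : Finite X := finite_of_le hXS
  haveI : Finite (MulAut X) := finite_mulAut _
  haveI : Finite (MulAut U) := finite_mulAut _
  have inU : U ≤ X := le_sup_left.trans le_sup_left
  have inC : centralizerIn S U ≤ X := le_sup_right.trans le_sup_left
  have inQ : Q ≤ X := le_sup_right
  have hB₀m : X.subtype.comp B₀.toMonoidHom ∈ F.Hom X := (mem_autGroup_iff hXS).1 hB₀
  have hB₀U' : ∀ (u : U), ((B₀ ⟨u, inU u.2⟩ : X) : Ω) = (g u : U) := fun u => (hB₀v ⟨u, le_sup_left (a := U) u.2⟩).trans (hβv u)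
  have hB₀c : ∀ (c : Ω) (hc : c ∈ centralizerIn S U), c⁻¹ * ((B₀ ⟨c, inC hc⟩ : X) : Ω) ∈ ZV U := fun c hc => by
    rw [show ((B₀ ⟨c, inC hc⟩ : X) : Ω) = _ from hB₀v ⟨c, le_sup_right (a := U) hc⟩]
    exact hβc ⟨c, le_sup_right (a := U) hc⟩ hc
  have hB₀Q' : ∀ (q : Ω) (hq : q ∈ Q), ((B₀ ⟨q, inQ hq⟩ : X) : Ω) ∈ Q := fun q hq => hB₀Q ⟨q, hq⟩
  have hcent : ∀ (c z : Ω), c ∈ centralizerIn S U → z ∈ ZV U → c * z ∈ centralizerIn S U := by
    intro c z hc hz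
    refine mem_centralizerIn.2 ⟨S.mul_mem (centralizerIn_le U hc) (hUS hz.1), fun x hx => ?_⟩
    have h1 := (mem_centralizerIn.1 hc).2 x hx
    have h2 : x * z = z * x := Subgroup.mem_centralizer_iff.1 hz.2 x hx
    rw [← mul_assoc, h1, mul_assoc, h2, mul_assoc]
  -- powers
  have hpow : ∀ n : ℕ, (∀ u : U, (((B₀ ^ n) ⟨u, inU u.2⟩ : X) : Ω) = ((g ^ n) u : U)) ∧
      (∀ (c : Ω) (hc : c ∈ centralizerIn S U), c⁻¹ * (((B₀ ^ n) ⟨c, inC hc⟩ : X) : Ω) ∈ ZV U) ∧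
      (∀ (q : Ω) (hq : q ∈ Q), (((B₀ ^ n) ⟨q, inQ hq⟩ : X) : Ω) ∈ Q) := by
    intro n
    induction n with
    | zero =>
      refine ⟨fun u => by simp, fun c hc => ?_, fun q hq => by simpa using hq⟩
      simp [Subgroup.one_mem]
    | succ n ih =>
      obtain ⟨h1, h2, h3⟩ := ih
      refine ⟨fun u => ?_, fun c hc => ?_, fun q hq => ?_⟩
      · rw [pow_succ', MulAut.mul_apply, pow_succ', MulAut.mul_apply]
        have e : ((B₀ ^ n) ⟨u, inU u.2⟩ : X) = ⟨((g ^ n) u : U), inU ((g ^ n) u).2⟩ := Subtype.ext (h1 u)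
        rw [e]
        exact hB₀U' _
      · rw [pow_succ', MulAut.mul_apply]
        have h4 := h2 c hc
        set z : Ω := c⁻¹ * (((B₀ ^ n) ⟨c, inC hc⟩ : X) : Ω) with hz
        have e : ((B₀ ^ n) ⟨c, inC hc⟩ : X) = ⟨c * z, inC (hcent c z hc h4)⟩ := by
          apply Subtype.ext
          show (((B₀ ^ n) ⟨c, inC hc⟩ : X) : Ω) = c * (c⁻¹ * (((B₀ ^ n) ⟨c, inC hc⟩ : X) : Ω))
          group
        rw [e]
        have h5 := hB₀c (c * z) (hcent c z hc h4)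
        have e2 : c⁻¹ * ((B₀ ⟨c * z, inC (hcent c z hc h4)⟩ : X) : Ω) = z * ((c * z)⁻¹ * ((B₀ ⟨c * z, inC (hcent c z hc h4)⟩ : X) : Ω)) := by
          group
        rw [e2]
        exact Subgroup.mul_mem _ h4 h5
      · rw [pow_succ', MulAut.mul_apply]
        exact hB₀Q' _ (h3 q hq)
  obtain ⟨m, hm, hgm⟩ := exists_pp_power hp B₀ hord
  set B : MulAut X := B₀ ^ m with hBdef
  have hBF : B ∈ F.autGroup X := Subgroup.pow_mem _ hB₀ _
  have hBm : X.subtype.comp B.toMonoidHom ∈ F.Hom X := (mem_autGroup_iff hXS).1 hBF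
  obtain ⟨hBU₀, hBc, hBQ⟩ := hpow m
  have hBU : ∀ u : U, ((B ⟨u, inU u.2⟩ : X) : Ω) = (g u : U) := fun u => by
    rw [hBU₀, hgm]
  -- the main computation
  have hmain : ∀ (q : Ω) (hq : q ∈ Q), (q⁻¹ * ((B ⟨q, inQ hq⟩ : X) : Ω))⁻¹ * ((B ⟨q⁻¹ * ((B ⟨q, inQ hq⟩ : X) : Ω),
      inQ (Q.mul_mem (Q.inv_mem hq) (hBQ q hq))⟩ : X) : Ω) ∈ Q ⊓ U := by
    intro q hq
    set q' : Ω := ((B ⟨q, inQ hq⟩ : X) : Ω) with hq'
    have hq'Q : q' ∈ Q := hBQ q hq
    set r : Ω := q⁻¹ * q' with hr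
    have hrQ : r ∈ Q := Q.mul_mem (Q.inv_mem hq) hq'Q
    have hrS : r ∈ S := hQS hrQ
    have hqS : q ∈ S := hQS hq
    have hrN := mem_normalizer_of_forall (T_normal hsc r hrS)
    have hqiN := mem_normalizer_of_forall (T_normal hsc q⁻¹ (S.inv_mem hqS))
    set a' : MulAut U := conjAut U q⁻¹ hqiN with ha'
    have ha'F : a' ∈ F.autGroup U := autInducedBy_le_autGroup F hUS (conjAut_mem (S.inv_mem hqS) hqiN)
    set ρ : MulAut U := conjAut U r hrN with hρ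
    have hgU' : ∀ x : U, (⟨q⁻¹ * x * q⁻¹⁻¹, inU (a' x).2⟩ : X) = (⟨q, inQ hq⟩ : X)⁻¹ * ⟨x, inU x.2⟩ * ⟨q, inQ hq⟩ := by
      intro x
      apply Subtype.ext
      show q⁻¹ * x * q⁻¹⁻¹ = q⁻¹ * x * q
      rw [inv_inv]
    have hrel : ρ * g * a' = a' * g := by
      ext x
      show r * ((g (a' x) : U) : Ω) * r⁻¹ = q⁻¹ * ((g x : U) : Ω) * q⁻¹⁻¹
      have h1 := hBU (a' x)
      have e : (⟨((a' x : U) : Ω), inU (a' x).2⟩ : X) = (⟨q, inQ hq⟩ : X)⁻¹ * ⟨x, inU x.2⟩ * ⟨q, inQ hq⟩ := hgU' x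
      rw [e, map_mul, map_mul, map_inv] at h1
      have h2 : ((g (a' x) : U) : Ω) = q'⁻¹ * ((g x : U) : Ω) * q' := by
        rw [← h1]
        show q'⁻¹ * ((B ⟨x, inU x.2⟩ : X) : Ω) * q' = _
        rw [hBU x]
      rw [h2, hr]
      group
    have hρD : ρ ∈ D.autGroup U := by
      have h1 : a' * g * a'⁻¹ ∈ D.autGroup U := aut_normal hIn ha'F hg
      have h2 : ρ = (a' * g * a'⁻¹) * g⁻¹ := by
        calc ρ = (ρ * g * a') * a'⁻¹ * g⁻¹ := by group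
          _ = _ := by rw [hrel]
      rw [h2]
      exact Subgroup.mul_mem _ h1 (Subgroup.inv_mem _ hg)
    obtain ⟨k, hk⟩ := hS ⟨r, hrS⟩
    have hρk : ρ ^ (p ^ k) = 1 := by
      have hk' : (⟨r, hrN⟩ : Subgroup.normalizer (U : Set Ω)) ^ (p ^ k) = 1 :=
        Subtype.ext (congrArg (fun z : S => (z : Ω)) hk)
      rw [hρ, conjAut, ← map_pow, hk', map_one]
    obtain ⟨u, hu, huv⟩ := mem_autInducedBy_iff.1 (inner_of_pElt hUS hUp hDs hρD hρk)
    set c : Ω := u⁻¹ * r with hc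
    have hcC : c ∈ centralizerIn S U := by
      refine mem_centralizerIn.2 ⟨S.mul_mem (S.inv_mem (hUS hu)) hrS, fun v hv => ?_⟩
      have h1 : r * v * r⁻¹ = u * v * u⁻¹ := huv ⟨v, hv⟩
      have h2 : r * v = u * v * u⁻¹ * r := by rw [← h1]; group
      calc v * c = u⁻¹ * (u * v * u⁻¹ * r) := by rw [hc]; group
        _ = c * v := by rw [← h2, hc]; group
    have hrX : (⟨r, inQ hrQ⟩ : X) = ⟨u, inU hu⟩ * ⟨c, inC hcC⟩ := by
      apply Subtype.ext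
      show r = u * c
      rw [hc]; group
    set z : Ω := c⁻¹ * ((B ⟨c, inC hcC⟩ : X) : Ω) with hz
    have hzZ : z ∈ ZV U := hBc c hcC
    have hBc' : ((B ⟨c, inC hcC⟩ : X) : Ω) = c * z := by rw [hz]; group
    have hBu : ((B ⟨u, inU hu⟩ : X) : Ω) = (g ⟨u, hu⟩ : U) := hBU ⟨u, hu⟩
    have hBr : ((B ⟨r, inQ hrQ⟩ : X) : Ω) = (g ⟨u, hu⟩ : U) * (c * z) := by
      rw [hrX, map_mul]
      show ((B ⟨u, inU hu⟩ : X) : Ω) * ((B ⟨c, inC hcC⟩ : X) : Ω) = _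
      rw [hBu, hBc']
    have hrBr : ((B ⟨r, inQ hrQ⟩ : X) : Ω) ∈ Q := hBQ r hrQ
    refine ⟨Q.mul_mem (Q.inv_mem hrQ) hrBr, ?_⟩
    show r⁻¹ * ((B ⟨r, inQ hrQ⟩ : X) : Ω) ∈ U
    rw [hBr]
    have hru : r = u * c := by rw [hc]; group
    have hcomm : (u⁻¹ * ((g ⟨u, hu⟩ : U) : Ω)) * c = c * (u⁻¹ * ((g ⟨u, hu⟩ : U) : Ω)) :=
      (mem_centralizerIn.1 hcC).2 _ (U.mul_mem (U.inv_mem hu) (g ⟨u, hu⟩).2)
    have e : r⁻¹ * (((g ⟨u, hu⟩ : U) : Ω) * (c * z)) = (u⁻¹ * ((g ⟨u, hu⟩ : U) : Ω)) * z := by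
      rw [hru]
      calc (u * c)⁻¹ * (((g ⟨u, hu⟩ : U) : Ω) * (c * z)) = c⁻¹ * ((u⁻¹ * ((g ⟨u, hu⟩ : U) : Ω)) * c) * z := by group
        _ = _ := by rw [hcomm]; group
    rw [e]
    exact U.mul_mem (U.mul_mem (U.inv_mem hu) (g ⟨u, hu⟩).2) hzZ.1
  -- the stability lemma
  have hstab := stable_coprime (A := Q.subgroupOf X) (A₀ := (Q ⊓ U).subgroupOf X) hp
    ((hS.to_le hQS).comap_of_injective X.subtype X.subtype_injective)
    (fun a ha n hn => Subgroup.mem_subgroupOf.2 ⟨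
      T_normal hQc _ (hXS a.2) _ (Subgroup.mem_subgroupOf.1 hn).1,
      T_normal hsc _ (hXS a.2) _ (Subgroup.mem_subgroupOf.1 hn).2⟩) B
    (fun n hn => Subgroup.mem_subgroupOf.2 (sc_val hQ₀c hBm n (Subgroup.mem_subgroupOf.1 hn)))
    (fun a ha => Subgroup.mem_subgroupOf.2 (hBQ _ (Subgroup.mem_subgroupOf.1 ha)))
    (fun a ha => Subgroup.mem_subgroupOf.2 (hmain a (Subgroup.mem_subgroupOf.1 ha))) hm
  have hle : U ⊔ Q ≤ X := sup_le inU inQ
  refine ⟨(X.subtype.comp B.toMonoidHom).comp (Subgroup.inclusion hle), res_mem F hBm hle, fun x => hBU x, fun q => ?_⟩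
  exact Subgroup.mem_subgroupOf.1 (hstab ⟨q, inQ q.2⟩ (Subgroup.mem_subgroupOf.2 q.2))

/-- Conjugation by elements of `U` lies in `gamQ`. -/
theorem autInduced_le_gamQ [Finite S] (hQ : F.IsNormal Q) (hsc : F.StronglyClosed U) {P : Subgroup Ω} (hPS : P ≤ S) {g : MulAut P}
    (hg : g ∈ autInducedBy U P) : g ∈ gamQ F hQ.1 (inf_le_left : Q ⊓ U ≤ Q) P hPS := by
  have hQc := IsNormal.stronglyClosed hQ
  have hXS : P ⊔ Q ≤ S := sup_le hPS hQ.1
  haveI : Finite P := finite_of_le hPS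
  haveI : Finite ↥(P ⊔ Q) := finite_of_le hXS
  obtain ⟨s, hs, hsv⟩ := mem_autInducedBy_iff.1 hg
  have hsS := hsc.1 hs
  have hsP : s ∈ Subgroup.normalizer (P : Set Ω) := mem_normalizer_of_conj hsv
  have hsX : ∀ w ∈ P ⊔ Q, s * w * s⁻¹ ∈ P ⊔ Q := by
    have hle : P ⊔ Q ≤ (P ⊔ Q).comap (MulAut.conj s).toMonoidHom := by
      refine sup_le (fun v hv => ?_) (fun c hc => ?_)
      · exact Subgroup.mem_sup_left ((Subgroup.mem_normalizer_iff.1 hsP v).1 hv)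
      · exact Subgroup.mem_sup_right (T_normal hQc s hsS c hc)
    exact fun w hw => hle hw
  have hsN : s ∈ Subgroup.normalizer ((P ⊔ Q : Subgroup Ω) : Set Ω) := mem_normalizer_of_forall hsX
  refine ⟨conjAut (P ⊔ Q) s hsN, ?_, fun v => ?_, fun q => ?_⟩
  · exact autInducedBy_le_autGroup F hXS (conjAut_mem hsS hsN)
  · rw [hsv]
    rfl
  · exact comm_mem_inf hQ hsc hs q.2

/-- Lower levels. -/
theorem level_lt [Finite S] (hS : IsPGroup p S) (hQ : F.IsNormal Q) (hD : D.IsNormalIn F p) {P : Subgroup Ω}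
    (hP : D.IsFullyNormalized P) (hlt : P < U)
    (IH : ∀ R, R ≤ U → Nat.card P < Nat.card R → ∀ φ ∈ D.Hom R, Adm F Q (Q ⊓ U) R φ) {a : MulAut P} (ha : a ∈ D.autGroup P) :
    Adm F Q (Q ⊓ U) P (P.subtype.comp a.toMonoidHom) := by
  obtain ⟨⟨hDs, -, hIn⟩, -⟩ := hD
  obtain ⟨hsub, hsc, -, -⟩ := hIn
  have hUS := hsc.1
  have hPU := hlt.le
  have hPS := hPU.trans hUS
  haveI : Finite U := finite_of_le hUS
  haveI : Finite P := finite_of_le hPS
  haveI : Finite (MulAut P) := finite_mulAut _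
  have hUp : IsPGroup p U := hS.to_le hUS
  have hQ₀c : F.StronglyClosed (Q ⊓ U) := inf_stronglyClosed (IsNormal.stronglyClosed hQ) hsc
  have hle : Q ⊓ U ≤ Q := inf_le_left
  obtain ⟨-, V, hV⟩ := IsSat.fullyAutomized_of_fullyNormalized hUp hDs hP
  have hsyl : IsSylowIn p (autInducedBy U P) (D.autGroup P) := ⟨V, hV⟩
  have hPA : autInducedBy U P ≤ D.autGroup P := autInducedBy_le_autGroup D hPU
  have hrec := IsSat.receptive_of_fullyNormalized hUp hDs hP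
  set Y : Subgroup (MulAut P) := gamQ F hQ.1 hle P hPS ⊓ D.autGroup P with hY
  have hPY : autInducedBy U P ≤ Y := le_inf (fun g hg => autInduced_le_gamQ hQ hsc hPS hg) hPA
  have hYA : Y ≤ D.autGroup P := inf_le_right
  have hsY : IsSylowIn p (autInducedBy U P) Y := IsSylowIn.of_le hsyl hPA hPY hYA
  have hPp : IsPGroup p (autInducedBy U P) := IsSylowIn.isPGroup hsyl hPA
  have hWp : IsPGroup p (conjSub a (autInducedBy U P)) := by
    have : conjSub a (autInducedBy U P) = (autInducedBy U P).map (MulAut.conj a).toMonoidHom := rfl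
    rw [this]
    exact hPp.map _
  have hWY : conjSub a (autInducedBy U P) ≤ Y := by
    rintro _ ⟨w, hw, rfl⟩
    have hwY := hPY hw
    have haF : a ∈ F.autGroup P := by
      have : D.autGroup P ≤ F.autGroup P := by
        intro z hz
        exact (mem_autGroup_iff hPS).2 (hsub _ ((mem_autGroup_iff hPU).1 hz))
      exact this ha
    refine ⟨gamQ_normal hQ hQ₀c hle hPS haF hwY.1, ?_⟩
    exact Subgroup.mul_mem _ (Subgroup.mul_mem _ ha hwY.2) (Subgroup.inv_mem _ ha)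
  obtain ⟨x, hx, hxv⟩ := IsSylowIn.exists_conj_le hsY hWp hWY
  set ν : MulAut P := x * a with hν
  have hνA : ν ∈ D.autGroup P := Subgroup.mul_mem _ (hYA hx) ha
  have hνP : ∀ t ∈ autInducedBy U P, ν * t * ν⁻¹ ∈ autInducedBy U P := by
    intro t ht
    have := hxv _ (conj_mem_conjSub (g := a) ht)
    have e : ν * t * ν⁻¹ = x * (a * t * a⁻¹) * x⁻¹ := by rw [hν]; group
    rw [e]
    exact this
  have hνAdm : ν ∈ admAut (F := F) hQ.1 hQ₀c hle P hPS := by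
    have hφ : P.subtype.comp ν.toMonoidHom ∈ D.Hom P := (mem_autGroup_iff hPU).1 hνA
    have hle' : normalizerIn U P ≤ extender U P (P.subtype.comp ν.toMonoidHom) := by
      intro g hg
      obtain ⟨hgT, hgN⟩ := mem_normalizerIn.1 hg
      have hcg := conjAut_mem hgT hgN
      obtain ⟨h, hh, hhv⟩ := mem_autInducedBy_iff.1 (hνP _ hcg)
      refine mem_extender_iff.2 ⟨hgT, hgN, h, hh, fun y hy => ?_⟩
      have h1 := hhv (ν y)
      have h2 : (ν * conjAut P g hgN * ν⁻¹) (ν y) = ν (conjAut P g hgN y) := by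
        simp [MulAut.mul_apply]
      rw [h2] at h1
      exact h1
    have hlt' := lt_normalizerIn hUp hlt
    have hcard : Nat.card P < Nat.card (extender U P (P.subtype.comp ν.toMonoidHom)) :=
      card_lt_of_lt (S := U) (extender_le_normalizerIn.trans (normalizerIn_le P)) (lt_of_lt_of_le hlt' hle')
    obtain ⟨ψ, hψ, hv⟩ := hrec.2 P _ hφ (range_comp_aut ν)
    have h1 := IH _ (hom_le D hψ) hcard ψ hψ
    have h2 := Adm.res h1 (le_extender hφ)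
    obtain ⟨ψ₁, hψ₁, ha₁, hb₁⟩ := h2
    refine ⟨ψ₁, hψ₁, fun y => ?_, hb₁⟩
    rw [ha₁]
    exact (hv y y.2 _).symm ▸ rfl
  have hxAdm : x⁻¹ ∈ admAut (F := F) hQ.1 hQ₀c hle P hPS := gamQ_le_admAut (Subgroup.inv_mem _ hx.1)
  have e : a = x⁻¹ * ν := by rw [hν]; group
  have : a ∈ admAut (F := F) hQ.1 hQ₀c hle P hPS := by
    rw [e]
    exact Subgroup.mul_mem _ hxAdm hνAdm
  exact this

/-- The class of maps with the extension property. -/
theorem closedClass_adm [Finite S] (hQ : F.IsNormal Q) (hsc : F.StronglyClosed U) :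
    ClosedClass D (fun P φ => Adm F Q (Q ⊓ U) P φ) where
  conj := fun P g hP hg => adm_conj hQ.1 (hP.trans hsc.1) (hsc.1 hg) (fun q hq => comm_mem_inf hQ hsc hg hq)
  comp := fun P R φ ψ _ _ h1 h2 h => Adm.comp (inf_stronglyClosed (IsNormal.stronglyClosed hQ) hsc) inf_le_left h1 h2 h
  inv := by
    intro P φ ψ hφ h1 hψ hv
    exact Adm.inv hQ.1 inf_le_left h1 (fun y => by
      obtain ⟨y, x, rfl⟩ := y
      exact ⟨x, rfl⟩) (fun x => ⟨x, rfl⟩) hv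

/-- **The maps of a normal subsystem extend over `Q`, acting trivially modulo `Q ∩ U`.** -/
theorem adapted [Finite S] (hS : IsPGroup p S) (hQ : F.IsNormal Q) (hD : D.IsNormalIn F p) :
    ∀ (P : Subgroup Ω) (φ : P →* Ω), φ ∈ D.Hom P → Adm F Q (Q ⊓ U) P φ := by
  have hD' := hD
  obtain ⟨⟨hDs, -, hIn⟩, -⟩ := hD'
  obtain ⟨hsub, hsc, -, -⟩ := hIn
  have hUS := hsc.1
  haveI : Finite U := finite_of_le hUS
  have hUp : IsPGroup p U := hS.to_le hUS
  have hQ₀c : F.StronglyClosed (Q ⊓ U) := inf_stronglyClosed (IsNormal.stronglyClosed hQ) hsc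
  refine ClosedClass.fn_induction (closedClass_adm hQ hsc) hUp hDs fun P hP IH α hα => ?_
  have hPU : P ≤ U := hP.1
  by_cases hPe : P = U
  · subst hPe
    obtain ⟨s, hs, β, hβ, hv⟩ := exists_conj_mul_residual hUp hDs hP ⟨α, hα⟩
    have hsT : s ∈ P := (mem_normalizerIn.1 hs).1
    have hsN : s ∈ Subgroup.normalizer ((P : Subgroup Ω) : Set Ω) := Subgroup.le_normalizer hsT
    have e : α = conjAut P s hsN * (β : MulAut P) := by
      ext x
      exact hv x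
    have hres : ∀ β : D.autGroup P, β ∈ pResidual p (D.autGroup P) → (β : MulAut P) ∈ admAut (F := F) hQ.1 hQ₀c inf_le_left P hsc.1 := by
      intro β hβ
      induction hβ using Subgroup.closure_induction with
      | mem g hg =>
        have hg' : (orderOf (g : MulAut P)).Coprime p := by
          rw [Subgroup.orderOf_coe]
          exact hg
        exact top_level hS hQ hD g.2 hg'
      | one => exact Subgroup.one_mem _
      | mul x y _ _ hx hy => exact Subgroup.mul_mem _ hx hy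
      | inv x _ hx => exact Subgroup.inv_mem _ hx
    have hc : conjAut P s hsN ∈ admAut (F := F) hQ.1 hQ₀c inf_le_left P hsc.1 := by
      obtain ⟨ψ, hψ, ha, hb⟩ := adm_conj (F := F) (Q := Q) (Q₀ := Q ⊓ P) (P := P) hQ.1 hsc.1 (hsc.1 hsT) (fun q hq => comm_mem_inf hQ hsc hsT hq)
      exact ⟨ψ, hψ, ha, hb⟩
    have : α ∈ admAut (F := F) hQ.1 hQ₀c inf_le_left P hsc.1 := by
      rw [e]
      exact Subgroup.mul_mem _ hc (hres β hβ)
    exact this
  · exact level_lt hS hQ hD hP (lt_of_le_of_ne hPU hPe) IH hα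

/-- The intersection of a normal subgroup with the base of a normal subsystem is normal in the subsystem. -/
theorem normal_inf [Finite S] (hS : IsPGroup p S) (hQ : F.IsNormal Q) (hD : D.IsNormalIn F p) : D.IsNormal (Q ⊓ U) := by
  obtain ⟨⟨hDs, -, hIn⟩, -⟩ := hD
  obtain ⟨hsub, hsc, -, -⟩ := hIn
  have hUS := hsc.1
  haveI : Finite U := finite_of_le hUS
  have hUp : IsPGroup p U := hS.to_le hUS
  have hQ₀c : F.StronglyClosed (Q ⊓ U) := inf_stronglyClosed (IsNormal.stronglyClosed hQ) hsc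
  have hQ₀D : D.StronglyClosed (Q ⊓ U) := ⟨inf_le_right, fun R hR φ hφ x => hQ₀c.2 R hR φ (hsub _ hφ) x⟩
  refine (isNormal_iff_stronglyClosed hUp hDs).2 ⟨hQ₀D, fun R hRc hRr => ?_⟩
  have hRU := hRc.1
  haveI : Finite R := finite_of_le hRU
  refine le_of_normal_pSubgroup hUp (StronglyClosed.le_normalizer hQ₀D) inf_le_right hRc hRr (D := autInducedBy (normalizerIn (Q ⊓ U) R) R)
    ?_ ?_ ?_ (fun g hg => conjAut_mem hg _)
  · exact (autInducedBy_mono ((inf_le_left : normalizerIn (Q ⊓ U) R ≤ Q ⊓ U).trans inf_le_right)).trans (autInducedBy_le_autGroup D hRU)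
  · exact isPGroup_autInducedBy (hUp.to_le ((inf_le_left : normalizerIn (Q ⊓ U) R ≤ Q ⊓ U).trans inf_le_right)) R
  · intro α hα δ hδ
    obtain ⟨g, hg, hv⟩ := mem_autInducedBy_iff.1 hδ
    have hiso : R.subtype.comp α.toMonoidHom ∈ F.Hom R := hsub _ ((mem_autGroup_iff hRU).1 hα)
    obtain ⟨ψ, hψ, hψv, hψm⟩ := hQ.2 R _ hiso
    have hgQ₀ : g ∈ Q ⊓ U := (mem_normalizerIn.1 hg).1
    have hgQ : g ∈ Q := hgQ₀.1
    have hgN := (mem_normalizerIn.1 hg).2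
    have h1 : ψ ⟨g, Subgroup.mem_sup_right hgQ⟩ ∈ Q := map_eq_mem hψm _ hgQ
    have h1U : ψ ⟨g, Subgroup.mem_sup_right hgQ⟩ ∈ U := sc_val hsc hψ _ hgQ₀.2
    have hact : ∀ y : R, (((α * δ * α⁻¹) y : R) : Ω) = ψ ⟨g, Subgroup.mem_sup_right hgQ⟩ * (y : Ω) * (ψ ⟨g, Subgroup.mem_sup_right hgQ⟩)⁻¹ := by
      intro y
      obtain ⟨x, rfl⟩ := α.surjective y
      have h2 : ∀ z : R, ψ ⟨z, Subgroup.mem_sup_left z.2⟩ = (α z : Ω) := hψv
      rw [MulAut.mul_apply, MulAut.mul_apply]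
      have h3 : (α⁻¹ (α x)) = x := by simp
      rw [h3, ← h2 (δ x), ← h2 x, ← map_inv, ← map_mul, ← map_mul]
      congr 1
      exact Subtype.ext (hv x)
    have hN' := mem_normalizer_of_conj hact
    exact mem_autInducedBy_iff.2 ⟨_, mem_normalizerIn.2 ⟨⟨h1, h1U⟩, hN'⟩, hact⟩

end Cfsg.Agent.Lib.Layer
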