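/-
The centralizer system of a normal subgroup is a normal subsystem.
-/
import Cfsg.Agent.Lib.Layer.Adapted
import Mathlib

set_option autoImplicit false

namespace Cfsg.Agent.Lib.Layer

open Cfsg Cfsg.FusionSystem Cfsg.Agent.Lib.Fusion Cfsg.Agent.Lib.FocCent

universe u

variable {Ω : Type u} [Group Ω] {S : Subgroup Ω} {F : FusionSystem S} {Q : Subgroup Ω} {p : ℕ} [Fact p.Prime]
  {G : FusionSystem (centralizerIn S Q)}

theorem cent_stronglyClosed (hQ : F.IsNormal Q) : F.StronglyClosed (centralizerIn S Q) := by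
  refine ⟨centralizerIn_le Q, fun P hP φ hφ x => ?_⟩
  obtain ⟨ψ, hψ, hv, hm⟩ := hQ.2 P φ hφ
  refine mem_centralizerIn.2 ⟨hom_val F hφ x, fun y hy => ?_⟩
  obtain ⟨q, hqX, hq, e⟩ := map_eq_exists hm hy
  have h1 : (q : Ω) * x = x * q := (mem_centralizerIn.1 (hP x.2)).2 q hq
  have h2 : ((⟨q, hqX⟩ : ↥(P ⊔ Q)) * ⟨x, Subgroup.mem_sup_left x.2⟩ : ↥(P ⊔ Q)) = ⟨x, Subgroup.mem_sup_left x.2⟩ * ⟨q, hqX⟩ := Subtype.ext h1
  have h3 := congrArg ψ h2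
  rw [map_mul, map_mul, e] at h3
  have h4 : ψ ⟨x, Subgroup.mem_sup_left x.2⟩ = φ x := hv x
  rw [h4] at h3
  exact h3

theorem exists_inv_on_Q {X : Subgroup Ω} [Finite Q] (hQX : Q ≤ X) {B : MulAut X} (hB : ∀ (q : Ω) (hq : q ∈ Q), ((B ⟨q, hQX hq⟩ : X) : Ω) ∈ Q)
    (q : Ω) (hq : q ∈ Q) : ∃ (q' : Ω) (hq' : q' ∈ Q), ((B ⟨q', hQX hq'⟩ : X) : Ω) = q := by
  let f : Q → Q := fun q => ⟨_, hB q q.2⟩
  have hf : Function.Injective f := by
    intro a c hac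
    have h1 := B.injective (Subtype.ext (congrArg (fun z : Q => (z : Ω)) hac))
    exact Subtype.ext (congrArg (fun z : X => (z : Ω)) h1)
  obtain ⟨q', hq'⟩ := (Finite.surjective_of_injective hf) ⟨q, hq⟩
  exact ⟨q', q'.2, congrArg (fun z : Q => (z : Ω)) hq'⟩

theorem normal_fullyCentralized [Finite S] (hS : IsPGroup p S) (hF : F.IsSaturated p) (hQ : F.IsNormal Q) : F.IsFullyCentralized Q :=
  T_fullyCentralized hS hF (IsNormal.stronglyClosed hQ)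

theorem cent_hom (hG : F.IsCentralizerSystem Q G) {P : Subgroup Ω} {φ : P →* Ω} : φ ∈ G.Hom P ↔ φ ∈ F.centralizerHom Q P := by
  rw [hG P]

/-- Invariance. -/
theorem cent_invariant_conj [Finite S] (hQ : F.IsNormal Q) (hG : F.IsCentralizerSystem Q G) (P : Subgroup Ω) (hPT : P ≤ centralizerIn S Q)
    (φ : P →* Ω) (hφ : φ ∈ G.Hom P) (α : MulAut (centralizerIn S Q)) (hα : α ∈ F.autGroup (centralizerIn S Q)) :
    ∃ χ ∈ G.Hom ((P.subgroupOf (centralizerIn S Q)).map ((centralizerIn S Q).subtype.comp α.toMonoidHom)),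
      ∀ (x : P) (hφx : φ x ∈ centralizerIn S Q)
        (hαx : ((α ⟨x, hPT x.2⟩ : centralizerIn S Q) : Ω) ∈ (P.subgroupOf (centralizerIn S Q)).map ((centralizerIn S Q).subtype.comp α.toMonoidHom)),
        χ ⟨(α ⟨x, hPT x.2⟩ : centralizerIn S Q), hαx⟩ = ((α ⟨φ x, hφx⟩ : centralizerIn S Q) : Ω) := by
  have hQS := hQ.1
  haveI : Finite Q := finite_of_le hQS
  have hRS : centralizerIn S Q ≤ S := centralizerIn_le Q
  have hWS : centralizerIn S Q ⊔ Q ≤ S := sup_le hRS hQS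
  haveI : Finite ↥(centralizerIn S Q ⊔ Q) := finite_of_le hWS
  have hφ' := hφ
  rw [hG P] at hφ'
  obtain ⟨hφF, -, hφv, ψ, hψ, h1, h2⟩ := hφ'
  obtain ⟨B, hB, hBv, hBQ⟩ := exists_lift_normal hQ hRS hα
  have hY : P ⊔ Q ≤ centralizerIn S Q ⊔ Q := sup_le_sup_right hPT Q
  have h1' : ∀ (x : Ω) (hx : x ∈ P), ψ ⟨x, Subgroup.mem_sup_left hx⟩ = φ ⟨x, hx⟩ := fun x hx => h1 ⟨x, hx⟩
  have h2' : ∀ (q : Ω) (hq : q ∈ Q), ψ ⟨q, Subgroup.mem_sup_right hq⟩ = q := fun q hq => h2 ⟨q, hq⟩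
  have hv : ∀ y, ψ y ∈ centralizerIn S Q ⊔ Q := by
    refine map_sup_mem (fun x hx => ?_) (fun q hq => ?_)
    · rw [h1' x hx]
      exact Subgroup.mem_sup_left (hφv _)
    · rw [h2' q hq]
      exact Subgroup.mem_sup_right hq
  obtain ⟨χ, hχ, hχv⟩ := conj_exists (b := B) hWS hB hY hψ hv
  set V : Subgroup Ω := (P.subgroupOf (centralizerIn S Q)).map ((centralizerIn S Q).subtype.comp α.toMonoidHom) with hV
  have hVimg : V ≤ img B (P ⊔ Q) := by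
    rintro _ ⟨u, hu, rfl⟩
    have hu' : (u : Ω) ∈ P := Subgroup.mem_subgroupOf.1 hu
    have := img_mem B (Y := P ⊔ Q) (hY (Subgroup.mem_sup_left hu')) (Subgroup.mem_sup_left hu')
    rwa [show ((B ⟨u, hY (Subgroup.mem_sup_left hu')⟩ : ↥(centralizerIn S Q ⊔ Q)) : Ω) = (α u : centralizerIn S Q) from hBv u] at this
  have hQimg : Q ≤ img B (P ⊔ Q) := by
    intro q hq
    obtain ⟨q', hq', e⟩ := exists_inv_on_Q (X := centralizerIn S Q ⊔ Q) (Q := Q) le_sup_right (B := B) (fun q hq => hBQ ⟨q, hq⟩) q hq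
    have := img_mem B (Y := P ⊔ Q) (hY (Subgroup.mem_sup_right hq')) (Subgroup.mem_sup_right hq')
    rwa [e] at this
  have hVQ : V ⊔ Q ≤ img B (P ⊔ Q) := sup_le hVimg hQimg
  have hVR : V ≤ centralizerIn S Q := by
    rintro _ ⟨u, -, rfl⟩
    exact (α u).2
  have hval : ∀ (u : centralizerIn S Q) (hu : (u : Ω) ∈ P) (hy : ((α u : centralizerIn S Q) : Ω) ∈ img B (P ⊔ Q)),
      χ ⟨_, hy⟩ = ((α ⟨φ ⟨u, hu⟩, hφv ⟨u, hu⟩⟩ : centralizerIn S Q) : Ω) := by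
    intro u hu hy
    have h3 := hχv ⟨u, Subgroup.mem_sup_left hu⟩
    have h4 : ψ ⟨u, Subgroup.mem_sup_left hu⟩ = φ ⟨u, hu⟩ := h1' u hu
    have e1 : (⟨_, img_mem B (hY (Subgroup.mem_sup_left hu)) (Subgroup.mem_sup_left hu)⟩ : img B (P ⊔ Q)) = ⟨_, hy⟩ := Subtype.ext (hBv u)
    have h5 := hBv ⟨φ ⟨u, hu⟩, hφv ⟨u, hu⟩⟩
    rw [← e1]
    refine h3.trans ?_
    rw [← h5]
    congr 3
  have hχres := res_mem F hχ hVQ
  have hQfix : ∀ (q : Ω) (hq : q ∈ Q) (hy : q ∈ img B (P ⊔ Q)), χ ⟨q, hy⟩ = q := by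
    intro q hq hy
    obtain ⟨q', hq', e⟩ := exists_inv_on_Q (X := centralizerIn S Q ⊔ Q) (Q := Q) le_sup_right (B := B) (fun q hq => hBQ ⟨q, hq⟩) q hq
    have h3 := hχv ⟨q', Subgroup.mem_sup_right hq'⟩
    have e1 : (⟨_, img_mem B (hY (Subgroup.mem_sup_right hq')) (Subgroup.mem_sup_right hq')⟩ : img B (P ⊔ Q)) = ⟨q, hy⟩ := Subtype.ext e
    rw [e1] at h3
    rw [h3, ← e]
    congr 3
    exact h2' q' hq'
  have hVval : ∀ (y : V), χ ⟨y, hVimg y.2⟩ ∈ centralizerIn S Q := by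
    rintro ⟨_, u, hu, rfl⟩
    have hu' : (u : Ω) ∈ P := Subgroup.mem_subgroupOf.1 hu
    show χ ⟨_, hVimg ⟨u, hu, rfl⟩⟩ ∈ centralizerIn S Q
    rw [show χ ⟨_, hVimg ⟨u, hu, rfl⟩⟩ = _ from hval u hu' (hVimg ⟨u, hu, rfl⟩)]
    exact (α _).2
  refine ⟨χ.comp (Subgroup.inclusion hVimg), ?_, fun x hφx hαx => ?_⟩
  · rw [hG V]
    refine ⟨res_mem F hχ hVimg, hVR, hVval, χ.comp (Subgroup.inclusion hVQ), hχres, fun x => rfl, fun q => hQfix q q.2 _⟩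
  · exact hval ⟨x, hPT x.2⟩ x.2 (hVimg hαx)

/-- The Frattini condition. -/
theorem cent_frattini [Finite S] (hS : IsPGroup p S) (hF : F.IsSaturated p) (hQ : F.IsNormal Q) (hG : F.IsCentralizerSystem Q G)
    (P : Subgroup Ω) (hPT : P ≤ centralizerIn S Q) (φ : P →* Ω) (hφ : φ ∈ F.Hom P) :
    ∃ α ∈ F.autGroup (centralizerIn S Q), ∃ φ₀ ∈ G.Hom P, ∀ (x : P) (hx : φ₀ x ∈ centralizerIn S Q),
      φ x = ((α ⟨φ₀ x, hx⟩ : centralizerIn S Q) : Ω) := by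
  have hQS := hQ.1
  haveI : Finite Q := finite_of_le hQS
  have hRS : centralizerIn S Q ≤ S := centralizerIn_le Q
  have hsc := cent_stronglyClosed hQ
  have hQfc := normal_fullyCentralized hS hF hQ
  haveI : Finite (centralizerIn S Q) := finite_of_le hRS
  haveI : Finite (WW S Q) := finite_of_le (WW_le hQS)
  obtain ⟨ψ, hψ, hv, hm⟩ := hQ.2 P φ hφ
  have hv' : ∀ (x : Ω) (hx : x ∈ P), ψ ⟨x, Subgroup.mem_sup_left hx⟩ = φ ⟨x, hx⟩ := fun x hx => hv ⟨x, hx⟩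
  have hψQ : ∀ q : Q, ψ ⟨q, Subgroup.mem_sup_right q.2⟩ ∈ Q := fun q => map_eq_mem hm _ q.2
  -- the automorphism of `Q`
  let a₀ : Q →* Q := ((ψ.comp (Subgroup.inclusion (le_sup_right : Q ≤ P ⊔ Q))).codRestrict Q hψQ)
  have ha₀inj : Function.Injective a₀ := by
    intro c d hcd
    have h1 := hom_inj F hψ (congrArg (fun z : Q => (z : Ω)) hcd)
    exact Subtype.ext (congrArg (fun z : ↥(P ⊔ Q) => (z : Ω)) h1)
  let a : MulAut Q := MulEquiv.ofBijective a₀ ⟨ha₀inj, Finite.surjective_of_injective ha₀inj⟩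
  have ha : a ∈ F.autGroup Q := (mem_autGroup_iff hQS).2 (hom_congr F (res_mem F hψ (le_sup_right : Q ≤ P ⊔ Q)) fun x => rfl)
  obtain ⟨B, hB, hBv⟩ := exists_lift hS hF hQfc ha
  have hBV : ∀ v : Q, ((B ⟨v, le_sup_left (a := Q) v.2⟩ : WW S Q) : Ω) ∈ Q := fun v => by
    rw [hBv]
    exact (a v).2
  have hBm : (WW S Q).subtype.comp B.toMonoidHom ∈ F.Hom (WW S Q) := (mem_autGroup_iff (WW_le hQS)).1 hB
  have hBR : ∀ c : centralizerIn S Q, ((B ⟨c, le_sup_right (a := Q) c.2⟩ : WW S Q) : Ω) ∈ centralizerIn S Q := fun c =>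
    val_centralizer hQS hBV ⟨c, le_sup_right (a := Q) c.2⟩ c.2
  let α₀ : centralizerIn S Q →* centralizerIn S Q :=
    (((WW S Q).subtype.comp B.toMonoidHom).comp (Subgroup.inclusion (le_sup_right : centralizerIn S Q ≤ WW S Q))).codRestrict _ hBR
  have hα₀inj : Function.Injective α₀ := by
    intro c d hcd
    have h1 := hom_inj F hBm (congrArg (fun z : centralizerIn S Q => (z : Ω)) hcd)
    exact Subtype.ext (congrArg (fun z : WW S Q => (z : Ω)) h1)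
  let α : MulAut (centralizerIn S Q) := MulEquiv.ofBijective α₀ ⟨hα₀inj, Finite.surjective_of_injective hα₀inj⟩
  have hα : α ∈ F.autGroup (centralizerIn S Q) :=
    (mem_autGroup_iff hRS).2 (hom_congr F (res_mem F hBm (le_sup_right : centralizerIn S Q ≤ WW S Q)) fun x => rfl)
  have hαB : ∀ c : centralizerIn S Q, ((α c : centralizerIn S Q) : Ω) = ((B ⟨c, le_sup_right (a := Q) c.2⟩ : WW S Q) : Ω) := fun c => rfl
  have hφR : ∀ x : P, φ x ∈ centralizerIn S Q := fun x => hsc.2 P hPT φ hφ x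
  have hαinvB : ∀ c : centralizerIn S Q, (((α⁻¹ : MulAut (centralizerIn S Q)) c : centralizerIn S Q) : Ω) =
      (((B⁻¹ : MulAut (WW S Q)) ⟨c, le_sup_right (a := Q) c.2⟩ : WW S Q) : Ω) := by
    intro c
    have h1 := hαB ((α⁻¹ : MulAut (centralizerIn S Q)) c)
    have e : (α ((α⁻¹ : MulAut (centralizerIn S Q)) c)) = c := by simp
    rw [e] at h1
    have h2 : (⟨c, le_sup_right (a := Q) c.2⟩ : WW S Q) = B ⟨((α⁻¹ : MulAut (centralizerIn S Q)) c : centralizerIn S Q), le_sup_right (a := Q) ((α⁻¹ : MulAut (centralizerIn S Q)) c).2⟩ :=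
      Subtype.ext h1
    rw [h2]
    simp
  have hαim : (centralizerIn S Q).subtype.comp (α⁻¹ : MulAut (centralizerIn S Q)).toMonoidHom ∈ F.Hom (centralizerIn S Q) :=
    (mem_autGroup_iff hRS).1 (Subgroup.inv_mem _ hα)
  have hBim : (WW S Q).subtype.comp (B⁻¹ : MulAut (WW S Q)).toMonoidHom ∈ F.Hom (WW S Q) :=
    (mem_autGroup_iff (WW_le hQS)).1 (Subgroup.inv_mem _ hB)
  have hψW : ∀ y, ψ y ∈ WW S Q := by
    refine map_sup_mem (fun x hx => ?_) (fun q hq => ?_)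
    · rw [hv' x hx]
      exact le_sup_right (a := Q) (hφR _)
    · exact le_sup_left (a := Q) (hψQ ⟨q, hq⟩)
  refine ⟨α, hα, ((centralizerIn S Q).subtype.comp (α⁻¹ : MulAut (centralizerIn S Q)).toMonoidHom).comp (φ.codRestrict _ hφR), ?_, fun x hx => ?_⟩
  · rw [hG P]
    refine ⟨F.comp_mem hφ hαim hφR, hPT, fun x => ((α⁻¹ : MulAut (centralizerIn S Q)) _).2,
      ((WW S Q).subtype.comp (B⁻¹ : MulAut (WW S Q)).toMonoidHom).comp (ψ.codRestrict _ hψW), F.comp_mem hψ hBim hψW, fun x => ?_, fun q => ?_⟩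
    · show (((B⁻¹ : MulAut (WW S Q)) ⟨ψ ⟨x, Subgroup.mem_sup_left x.2⟩, hψW _⟩ : WW S Q) : Ω) = (((α⁻¹ : MulAut (centralizerIn S Q)) ⟨φ x, hφR x⟩ : centralizerIn S Q) : Ω)
      rw [hαinvB]
      congr 2
      exact Subtype.ext (hv x)
    · show (((B⁻¹ : MulAut (WW S Q)) ⟨ψ ⟨q, Subgroup.mem_sup_right q.2⟩, hψW _⟩ : WW S Q) : Ω) = q
      have e : (⟨ψ ⟨q, Subgroup.mem_sup_right q.2⟩, hψW _⟩ : WW S Q) = B ⟨q, le_sup_left (a := Q) q.2⟩ :=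
        Subtype.ext (hBv q).symm
      rw [e]
      simp
  · show φ x = _
    have e : (⟨_, hx⟩ : centralizerIn S Q) = (α⁻¹ : MulAut (centralizerIn S Q)) ⟨φ x, hφR x⟩ := rfl
    rw [e]
    simp

/-- The extension condition. -/
theorem N1_core [Finite S] (hS : IsPGroup p S) (hF : F.IsSaturated p) (hQ : F.IsNormal Q) {R : Subgroup Ω} (hRdef : R = centralizerIn S Q)
    {α : MulAut R} {ψ : ↥(R ⊔ Q) →* Ω} (hψ : ψ ∈ F.Hom (R ⊔ Q)) (h1 : ∀ x : R, ψ (Subgroup.inclusion le_sup_left x) = (α x : R))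
    (h2 : ∀ x : Q, ψ (Subgroup.inclusion le_sup_right x) = x) :
    ∃ β ∈ F.autGroup (R ⊔ centralizerIn S R),
      (∀ x : R, ((β (Subgroup.inclusion le_sup_left x) : ↥(R ⊔ centralizerIn S R)) : Ω) = ((α x : R) : Ω)) ∧
      ∀ c : ↥(R ⊔ centralizerIn S R), (c : Ω) ∈ centralizerIn S R →
        (c : Ω)⁻¹ * ((β c : ↥(R ⊔ centralizerIn S R)) : Ω) ∈ R ⊓ Subgroup.centralizer (R : Set Ω) := by
  have hQS := hQ.1
  have hRsc : F.StronglyClosed R := by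
    rw [hRdef]
    exact cent_stronglyClosed hQ
  have hRS := hRsc.1
  have hQsc := IsNormal.stronglyClosed hQ
  haveI : Finite R := finite_of_le hRS
  haveI : Finite Q := finite_of_le hQS
  have hW₁S : R ⊔ Q ≤ S := sup_le hRS hQS
  haveI : Finite ↥(R ⊔ Q) := finite_of_le hW₁S
  have hY : R ⊔ centralizerIn S R ≤ S := WW_le hRS
  haveI : Finite ↥(R ⊔ centralizerIn S R) := finite_of_le hY
  have hnW : ∀ g ∈ S, ∀ w ∈ R ⊔ Q, g * w * g⁻¹ ∈ R ⊔ Q := by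
    intro g hg
    have hle : R ⊔ Q ≤ (R ⊔ Q).comap (MulAut.conj g).toMonoidHom := by
      refine sup_le (fun v hv => ?_) (fun c hc => ?_)
      · exact Subgroup.mem_sup_left (T_normal hRsc g hg v hv)
      · exact Subgroup.mem_sup_right (T_normal hQsc g hg c hc)
    exact fun w hw => hle hw
  have hnorm : normalizerIn S (R ⊔ Q) = S := inf_eq_left.2 fun g hg => mem_normalizer_of_forall (hnW g hg)
  have hfn := isFullyNormalized_of_normalizerIn_eq (F := F) hW₁S hnorm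
  have hrec := IsSat.receptive_of_fullyNormalized hS hF hfn
  have h1' : ∀ (x : Ω) (hx : x ∈ R), ψ ⟨x, Subgroup.mem_sup_left hx⟩ = (α ⟨x, hx⟩ : R) := fun x hx => h1 ⟨x, hx⟩
  have h2' : ∀ (q : Ω) (hq : q ∈ Q), ψ ⟨q, Subgroup.mem_sup_right hq⟩ = q := fun q hq => h2 ⟨q, hq⟩
  have hrange : ψ.range = R ⊔ Q := by
    apply le_antisymm
    · rintro _ ⟨y, rfl⟩
      revert y
      refine map_sup_mem (fun x hx => ?_) (fun q hq => ?_)
      · rw [h1' x hx]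
        exact Subgroup.mem_sup_left (α _).2
      · rw [h2' q hq]
        exact Subgroup.mem_sup_right hq
    · refine sup_le (fun y hy => ?_) (fun q hq => ⟨⟨q, Subgroup.mem_sup_right hq⟩, h2' q hq⟩)
      refine ⟨⟨(α⁻¹ ⟨y, hy⟩ : R), Subgroup.mem_sup_left (α⁻¹ ⟨y, hy⟩).2⟩, ?_⟩
      refine (h1' _ (α⁻¹ ⟨y, hy⟩).2).trans ?_
      simp
  obtain ⟨Ψ, hΨ, hΨv⟩ := hrec.2 (R ⊔ Q) ψ hψ hrange
  have hQN : Q ≤ Subgroup.normalizer (R : Set Ω) := fun q hq =>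
    mem_normalizer_of_forall (T_normal hRsc q (hQS hq))
  have hCext : centralizerIn S R ≤ extender S (R ⊔ Q) ψ := by
    intro x hx
    obtain ⟨hxS, hxc⟩ := mem_centralizerIn.1 hx
    refine mem_extender_iff.2 ⟨hxS, mem_normalizer_of_forall (hnW x hxS), x, hxS, fun y hy => ?_⟩
    obtain ⟨r, hr, q, hq, e⟩ := exists_mul_of_mem_sup hQN y.2
    have hq₁ : x * q * x⁻¹ ∈ Q := T_normal hQsc x hxS q hq
    have e1 : (⟨x * y * x⁻¹, hy⟩ : ↥(R ⊔ Q)) = ⟨r, Subgroup.mem_sup_left hr⟩ * ⟨x * q * x⁻¹, Subgroup.mem_sup_right hq₁⟩ := by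
      apply Subtype.ext
      show x * (y : Ω) * x⁻¹ = r * (x * q * x⁻¹)
      have e0 : x * (r * q) * x⁻¹ = (x * r) * q * x⁻¹ := by group
      rw [e, e0, ← hxc r hr]
      group
    have e2 : y = ⟨r, Subgroup.mem_sup_left hr⟩ * ⟨q, Subgroup.mem_sup_right hq⟩ := Subtype.ext e
    rw [e1, map_mul, h1' r hr, h2' _ hq₁]
    conv_rhs => rw [e2, map_mul, h1' r hr, h2' _ hq]
    have hc := hxc _ (α ⟨r, hr⟩).2
    calc ((α ⟨r, hr⟩ : R) : Ω) * (x * q * x⁻¹) = (((α ⟨r, hr⟩ : R) : Ω) * x) * q * x⁻¹ := by group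
      _ = x * (((α ⟨r, hr⟩ : R) : Ω) * q) * x⁻¹ := by rw [hc]; group
  have hW₁E : R ⊔ Q ≤ extender S (R ⊔ Q) ψ := le_extender hψ
  have hle : R ⊔ centralizerIn S R ≤ extender S (R ⊔ Q) ψ := sup_le (le_sup_left.trans hW₁E) hCext
  have hΨR : ∀ (r : Ω) (hr : r ∈ R) (h : r ∈ extender S (R ⊔ Q) ψ), Ψ ⟨r, h⟩ = (α ⟨r, hr⟩ : R) := fun r hr h =>
    (hΨv r (Subgroup.mem_sup_left hr) h).trans (h1' r hr)
  have hΨQ : ∀ (q : Ω) (hq : q ∈ Q) (h : q ∈ extender S (R ⊔ Q) ψ), Ψ ⟨q, h⟩ = q := fun q hq h =>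
    (hΨv q (Subgroup.mem_sup_right hq) h).trans (h2' q hq)
  have hΨC : ∀ (c : Ω) (hc : c ∈ centralizerIn S R) (h : c ∈ extender S (R ⊔ Q) ψ), Ψ ⟨c, h⟩ ∈ centralizerIn S R := by
    intro c hc h
    refine mem_centralizerIn.2 ⟨hom_val F hΨ _, fun y hy => ?_⟩
    have hr := (α⁻¹ ⟨y, hy⟩).2
    set r : Ω := ((α⁻¹ ⟨y, hy⟩ : R) : Ω) with hrdef
    have hαr : ((α ⟨r, hr⟩ : R) : Ω) = y := by
      have : (α ⟨r, hr⟩) = ⟨y, hy⟩ := by
        show α (α⁻¹ ⟨y, hy⟩) = _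
        simp
      rw [this]
    have hrE := hW₁E (Subgroup.mem_sup_left hr : r ∈ R ⊔ Q)
    have e : (⟨r, hrE⟩ * ⟨c, h⟩ : extender S (R ⊔ Q) ψ) = ⟨c, h⟩ * ⟨r, hrE⟩ := Subtype.ext ((mem_centralizerIn.1 hc).2 r hr)
    have e2 := congrArg Ψ e
    rw [map_mul, map_mul, hΨR r hr hrE, hαr] at e2
    exact e2
  have hΨ₁ := res_mem F hΨ hle
  have hval : ∀ y, (Ψ.comp (Subgroup.inclusion hle)) y ∈ R ⊔ centralizerIn S R := by
    refine map_sup_mem (fun x hx => ?_) (fun c hc => ?_)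
    · show Ψ ⟨x, _⟩ ∈ _
      rw [hΨR x hx]
      exact Subgroup.mem_sup_left (α _).2
    · exact Subgroup.mem_sup_right (hΨC c hc _)
  have hinj : Function.Injective ((Ψ.comp (Subgroup.inclusion hle)).codRestrict _ hval) := fun a c hac =>
    hom_inj F hΨ₁ (congrArg (fun z : ↥(R ⊔ centralizerIn S R) => (z : Ω)) hac)
  refine ⟨MulEquiv.ofBijective _ ⟨hinj, Finite.surjective_of_injective hinj⟩,
    (mem_autGroup_iff hY).2 (hom_congr F hΨ₁ fun x => rfl), fun x => hΨR x x.2 _, fun c hc => ?_⟩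
  have hcE : (c : Ω) ∈ extender S (R ⊔ Q) ψ := hle c.2
  show (c : Ω)⁻¹ * Ψ ⟨c, hcE⟩ ∈ _
  have hc' := hΨC c hc hcE
  set c' : Ω := Ψ ⟨c, hcE⟩ with hc'def
  obtain ⟨hcS, hcc⟩ := mem_centralizerIn.1 hc
  obtain ⟨hc'S, hc'c⟩ := mem_centralizerIn.1 hc'
  refine ⟨?_, Subgroup.mem_centralizer_iff.2 fun r hr => ?_⟩
  · refine hRdef.symm.le (mem_centralizerIn.2 ⟨S.mul_mem (S.inv_mem hcS) hc'S, fun q hq => ?_⟩)
    have hqE := hW₁E (Subgroup.mem_sup_right hq : q ∈ R ⊔ Q)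
    have hq₁ : (c : Ω) * q * (c : Ω)⁻¹ ∈ Q := T_normal hQsc c hcS q hq
    have hq₁E := hW₁E (Subgroup.mem_sup_right hq₁ : (c : Ω) * q * (c : Ω)⁻¹ ∈ R ⊔ Q)
    have e : (⟨c, hcE⟩ * ⟨q, hqE⟩ * (⟨c, hcE⟩)⁻¹ : extender S (R ⊔ Q) ψ) = ⟨_, hq₁E⟩ := rfl
    have e2 := congrArg Ψ e
    rw [map_mul, map_mul, map_inv, hΨQ q hq hqE, hΨQ _ hq₁ hq₁E] at e2
    have e3 : c' * q * c'⁻¹ = (c : Ω) * q * (c : Ω)⁻¹ := e2
    calc q * ((c : Ω)⁻¹ * c') = (c : Ω)⁻¹ * ((c : Ω) * q * (c : Ω)⁻¹) * c' := by group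
      _ = (c : Ω)⁻¹ * (c' * q * c'⁻¹) * c' := by rw [e3]
      _ = ((c : Ω)⁻¹ * c') * q := by group
  · calc r * ((c : Ω)⁻¹ * c') = (c : Ω)⁻¹ * ((c : Ω) * r) * (c : Ω)⁻¹ * c' := by group
      _ = (c : Ω)⁻¹ * (r * c) * (c : Ω)⁻¹ * c' := by rw [hcc r hr]
      _ = (c : Ω)⁻¹ * r * c' := by group
      _ = (c : Ω)⁻¹ * (r * c') := by group
      _ = ((c : Ω)⁻¹ * c') * r := by rw [hc'c r hr]; group

/-- **The centralizer system of a normal subgroup is normal.** -/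
theorem cent_normal [Finite S] (hS : IsPGroup p S) (hF : F.IsSaturated p) (hQ : F.IsNormal Q) (hG : F.IsCentralizerSystem Q G) :
    G.IsNormalIn F p := by
  have hQfc := normal_fullyCentralized hS hF hQ
  refine ⟨⟨isSaturated_centralizerSystem hS hF hQfc hG, hF, ?_, cent_stronglyClosed hQ, fun P hPT φ hφ α hα => cent_invariant_conj hQ hG P hPT φ hφ α hα,
    fun P hPT φ hφ => cent_frattini hS hF hQ hG P hPT φ hφ⟩, fun α hα => ?_⟩
  · intro P φ hφ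
    rw [hG P] at hφ
    exact hφ.1
  · have hm : (centralizerIn S Q).subtype.comp α.toMonoidHom ∈ G.Hom (centralizerIn S Q) := (mem_autGroup_iff le_rfl).1 hα
    rw [hG _] at hm
    obtain ⟨-, -, -, ψ, hψ, h1, h2⟩ := hm
    exact N1_core hS hF hQ rfl hψ h1 h2

end Cfsg.Agent.Lib.Layer
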