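/-
Normal subgroups of quasisimple systems are central.
-/
import Cfsg.Agent.Lib.Layer.CentNormal
import Cfsg.Agent.Lib.Fusion.FactorSat
import Cfsg.Agent.Lib.Fusion.Inner
import Mathlib

set_option autoImplicit false

namespace Cfsg.Agent.Lib.Layer

open Cfsg Cfsg.FusionSystem Cfsg.Agent.Lib.Fusion Cfsg.Agent.Lib.FocCent

section

variable {Ω Ω' : Type*} [Group Ω] [Group Ω'] {S : Subgroup Ω} {S' : Subgroup Ω'} {F : FusionSystem S}
  {S₀ : Subgroup Ω} {θ : S →* Ω'} {E : FusionSystem S'} {Q : Subgroup Ω} [Finite S]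

theorem image_normal (hS₀ : F.StronglyClosed S₀) (hE : F.IsFactorSystem S₀ θ E) (hQ : F.IsNormal Q) (hQ₀ : S₀ ≤ Q) :
    E.IsNormal (imageAlong θ Q) := by
  have hfin := IsFactorSystem.finite hE
  obtain ⟨hle, hker, hS', hiff⟩ := id hE
  have hQS := hQ.1
  have himg : imageAlong θ Q ≤ S' := by
    rintro _ ⟨s, -, rfl⟩
    exact hS' ▸ ⟨s, rfl⟩
  refine ⟨himg, fun P' φ' hφ' => ?_⟩
  obtain ⟨hP', φ, hφ, hind⟩ := (hiff _ _).1 hφ'
  obtain ⟨ψ, hψ, hv, hm⟩ := hQ.2 _ φ hφ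
  have hT : P' ⊔ imageAlong θ Q ≤ S' := sup_le hP' himg
  have hPQS : preimageAlong θ P' ⊔ Q ≤ S := sup_le (preimageAlong_le P') hQS
  have hpre := IsFactorSystem.preimage_image hE (hQ₀.trans le_sup_right) hPQS
  have hTle : P' ⊔ imageAlong θ Q ≤ imageAlong θ (preimageAlong θ P' ⊔ Q) := by
    refine sup_le (fun y hy => ?_) ?_
    · obtain ⟨x, hxS, hxP, e⟩ := IsFactorSystem.mem_image hE hP' ⟨y, hy⟩
      exact ⟨⟨x, hxS⟩, Subgroup.mem_subgroupOf.2 (Subgroup.mem_sup_left hxP), e⟩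
    · rintro _ ⟨s, hs, rfl⟩
      exact ⟨s, Subgroup.mem_subgroupOf.2 (Subgroup.mem_sup_right (Subgroup.mem_subgroupOf.1 hs)), rfl⟩
  have hle' : preimageAlong θ (P' ⊔ imageAlong θ Q) ≤ preimageAlong θ P' ⊔ Q := by
    intro x hx
    obtain ⟨hxS, hx'⟩ := mem_preimageAlong.1 hx
    exact hpre.le (mem_preimageAlong.2 ⟨hxS, hTle hx'⟩)
  have hψ₁ := res_mem F hψ hle'
  obtain ⟨ψ', hind'⟩ := exists_induced hS₀ hker hS' hT hψ₁
  have hψ' : ψ' ∈ E.Hom (P' ⊔ imageAlong θ Q) := (hiff _ _).2 ⟨hT, _, hψ₁, hind'⟩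
  have hval : ∀ (x : Ω) (hx : x ∈ S) (hxX : x ∈ preimageAlong θ P' ⊔ Q) (hy : θ ⟨x, hx⟩ ∈ P' ⊔ imageAlong θ Q),
      ψ' ⟨θ ⟨x, hx⟩, hy⟩ = θ ⟨ψ ⟨x, hxX⟩, hom_val F hψ _⟩ := by
    intro x hx hxX hy
    exact inducedAlong_val hind' ⟨x, mem_preimageAlong.2 ⟨hx, hy⟩⟩ hx ⟨_, hy⟩ rfl (hom_val F hψ _)
  refine ⟨ψ', hψ', fun y => ?_, ?_⟩
  · obtain ⟨x, hxS, hxP, e⟩ := IsFactorSystem.mem_image hE hP' y
    have h1 := inducedAlong_val hind ⟨x, hxP⟩ hxS y e (hom_val F hφ _)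
    have e2 : Subgroup.inclusion le_sup_left y = (⟨θ ⟨x, hxS⟩, Subgroup.mem_sup_left (by rw [e]; exact y.2)⟩ : ↥(P' ⊔ imageAlong θ Q)) :=
      Subtype.ext e.symm
    rw [e2, hval x hxS (Subgroup.mem_sup_left hxP), h1]
    have h3 := hv ⟨x, hxP⟩
    congr 2
  · apply le_antisymm
    · rintro _ ⟨y, hy, rfl⟩
      obtain ⟨s, hs, hsy⟩ := Subgroup.mem_subgroupOf.1 hy
      have hs' : (s : Ω) ∈ Q := Subgroup.mem_subgroupOf.1 hs
      have hy' : θ s ∈ P' ⊔ imageAlong θ Q := by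
        rw [hsy]
        exact y.2
      have e : y = ⟨θ ⟨s, s.2⟩, hy'⟩ := Subtype.ext hsy.symm
      rw [e, hval s s.2 (Subgroup.mem_sup_right hs') hy']
      exact ⟨⟨ψ ⟨s, Subgroup.mem_sup_right hs'⟩, hom_val F hψ _⟩, Subgroup.mem_subgroupOf.2 (map_eq_mem hm _ hs'), rfl⟩
    · rintro _ ⟨s, hs, rfl⟩
      have hs' : (s : Ω) ∈ Q := Subgroup.mem_subgroupOf.1 hs
      obtain ⟨q₀, hq₀X, hq₀, e⟩ := map_eq_exists hm hs'
      have hq₀S : q₀ ∈ S := hQS hq₀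
      have hy : θ ⟨q₀, hq₀S⟩ ∈ imageAlong θ Q := ⟨⟨q₀, hq₀S⟩, Subgroup.mem_subgroupOf.2 hq₀, rfl⟩
      have hy' : θ ⟨q₀, hq₀S⟩ ∈ P' ⊔ imageAlong θ Q := Subgroup.mem_sup_right hy
      refine ⟨⟨_, hy'⟩, Subgroup.mem_subgroupOf.2 hy, ?_⟩
      refine (hval q₀ hq₀S hq₀X hy').trans ?_
      congr 2

end

section

variable {Ω' : Type*} [Group Ω'] {S' : Subgroup Ω'} {E : FusionSystem S'} {p : ℕ} [Fact p.Prime] [Finite S']

theorem inner_normal (hS' : IsPGroup p S') (hEs : E.IsSaturated p) {R : Subgroup Ω'} (hR : E.IsNormal R) :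
    (innerFusionSystem R).IsNormalIn E p := by
  have hRS := hR.1
  haveI : Finite R := finite_of_le hRS
  have hsc := IsNormal.stronglyClosed hR
  refine ⟨⟨isSaturated_inner (hS'.to_le hRS), hEs, inner_le_of_le hRS E, hsc, ?_, ?_⟩, ?_⟩
  · rintro P hPT φ ⟨-, g, hg, hv⟩ α hα
    have hle : (P.subgroupOf R).map (R.subtype.comp α.toMonoidHom) ≤ R := by
      rintro _ ⟨x, -, rfl⟩
      exact (α x).2
    refine ⟨_, (innerFusionSystem R).conj_mem hle (α ⟨g, hg⟩).2, fun x hφx hαx => ?_⟩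
    show ((α ⟨g, hg⟩ : R) : Ω') * (α ⟨x, hPT x.2⟩ : R) * ((α ⟨g, hg⟩ : R) : Ω')⁻¹ = (α ⟨φ x, hφx⟩ : R)
    have e : (⟨φ x, hφx⟩ : R) = ⟨g, hg⟩ * ⟨x, hPT x.2⟩ * (⟨g, hg⟩ : R)⁻¹ := Subtype.ext (hv x)
    rw [e, map_mul, map_mul, map_inv]
    rfl
  · intro P hPT φ hφ
    obtain ⟨ψ, hψ, hv, hm⟩ := hR.2 P φ hφ
    have h1 := res_mem E hψ (le_sup_right : R ≤ P ⊔ R)
    obtain ⟨a, ha, hav⟩ := exists_aut_of_map h1 (fun y => map_eq_mem hm _ y.2)
    refine ⟨a, ha, P.subtype, ?_, fun x hx => ?_⟩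
    · refine hom_congr _ ((innerFusionSystem R).conj_mem hPT R.one_mem) fun x => ?_
      show (x : Ω') = (1 : Ω') * (x : Ω') * 1⁻¹
      simp
    · rw [hav]
      exact (hv x).symm
  · intro α hα
    rw [autGroup_inner le_rfl] at hα
    obtain ⟨g, hg, hv⟩ := mem_autInducedBy_iff.1 hα
    have hW : R ⊔ centralizerIn S' R ≤ S' := WW_le hRS
    haveI : Finite ↥(R ⊔ centralizerIn S' R) := finite_of_le hW
    have hgW : ∀ w ∈ R ⊔ centralizerIn S' R, g * w * g⁻¹ ∈ R ⊔ centralizerIn S' R := by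
      have hle : R ⊔ centralizerIn S' R ≤ (R ⊔ centralizerIn S' R).comap (MulAut.conj g).toMonoidHom := by
        refine sup_le (fun v hv => ?_) (fun c hc => ?_)
        · exact Subgroup.mem_sup_left (R.mul_mem (R.mul_mem hg hv) (R.inv_mem hg))
        · have h1 : g * c = c * g := (mem_centralizerIn.1 hc).2 g hg
          have h2 : g * c * g⁻¹ ∈ R ⊔ centralizerIn S' R := by
            rw [h1, mul_inv_cancel_right]
            exact Subgroup.mem_sup_right hc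
          exact h2
      exact fun w hw => hle hw
    have hgN := mem_normalizer_of_forall hgW
    refine ⟨conjAut _ g hgN, autInducedBy_le_autGroup E hW (conjAut_mem (hRS hg) hgN), fun x => (hv x).symm, fun c hc => ?_⟩
    show (c : Ω')⁻¹ * (g * (c : Ω') * g⁻¹) ∈ _
    have h1 : g * (c : Ω') = c * g := (mem_centralizerIn.1 hc).2 g hg
    rw [h1, mul_inv_cancel_right, inv_mul_cancel]
    exact Subgroup.one_mem _

theorem hyp_bot_of_inner {R : Subgroup Ω'} (hR : IsPGroup p R) (hE : ∀ P, E.Hom P = (innerFusionSystem R).Hom P) :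
    E.hyperfocalSubgroup p = ⊥ := by
  rw [hyperfocalSubgroup, Subgroup.closure_eq_bot_iff]
  rintro _ ⟨P, α, x, hP, hα, rfl⟩
  have hkey : ∀ β : E.autGroup P, (orderOf β).Coprime p → β = 1 := by
    intro β hβ
    have hm : P.subtype.comp (β : MulAut P).toMonoidHom ∈ E.Hom P := (mem_autGroup_iff hP).1 β.2
    rw [hE P] at hm
    obtain ⟨-, g, hg, hv⟩ := hm
    have hin : (β : MulAut P) ∈ autInducedBy R P := mem_autInducedBy_iff.2 ⟨g, hg, hv⟩
    obtain ⟨k, hk⟩ := isPGroup_autInducedBy hR P ⟨_, hin⟩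
    have hk' : (β : MulAut P) ^ (p ^ k) = 1 := congrArg Subtype.val hk
    have h1 : β ^ (p ^ k) = 1 := Subtype.ext hk'
    have h2 : orderOf β ∣ p ^ k := orderOf_dvd_of_pow_eq_one h1
    have h3 : orderOf β = 1 := Nat.Coprime.eq_one_of_dvd (Nat.Coprime.pow_right k hβ) h2
    exact orderOf_eq_one_iff.1 h3
  have hα1 : α = 1 := by
    induction hα using Subgroup.closure_induction with
    | mem g hg => exact hkey g hg
    | one => rfl
    | mul a b _ _ ha hb => rw [ha, hb, mul_one]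
    | inv a _ ha => rw [ha, inv_one]
  subst hα1
  simp

end

section

variable {Ω : Type*} [Group Ω] {S : Subgroup Ω} {F : FusionSystem S} {Q : Subgroup Ω} {p : ℕ} [Fact p.Prime] [Finite S]

theorem central_normal {Z : Subgroup Ω} (hZ : F.IsCentral Z) : F.IsNormal Z := by
  refine ⟨hZ.1, fun P φ hφ => ?_⟩
  obtain ⟨ψ, hψ, hv, hw⟩ := hZ.2 P φ hφ
  refine ⟨ψ, hψ, hv, ?_⟩
  apply le_antisymm
  · rintro _ ⟨y, hy, rfl⟩
    have hy' : (y : Ω) ∈ Z := Subgroup.mem_subgroupOf.1 hy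
    rw [show ψ y = y from hw ⟨y, hy'⟩]
    exact hy'
  · intro z hz
    exact ⟨⟨z, Subgroup.mem_sup_right hz⟩, Subgroup.mem_subgroupOf.2 hz, hw ⟨z, hz⟩⟩

/-- **A normal subgroup of a quasisimple system is central.** -/
theorem quasisimple_central (hS : IsPGroup p S) (hq : F.Quasisimple p) (hQ : F.IsNormal Q) : F.IsCentral Q := by
  classical
  obtain ⟨hF, hhyp, hsimple⟩ := hq
  have hcen : F.IsCentral F.center := isCentral_center
  have hZS : F.center ≤ S := hcen.1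
  have hsc : F.StronglyClosed F.center := IsCentral.stronglyClosed hcen
  set Z : Subgroup S := (F.center).subgroupOf S with hZ
  let θ : S →* S ⧸ Z := QuotientGroup.mk' Z
  have hker : ∀ s : S, θ s = 1 ↔ (s : Ω) ∈ F.center := by
    intro s
    rw [show (θ s = 1) ↔ s ∈ Z from QuotientGroup.eq_one_iff s]
    exact Subgroup.mem_subgroupOf
  have hran : θ.range = ⊤ := MonoidHom.range_eq_top.2 (QuotientGroup.mk'_surjective Z)
  obtain ⟨E, hE⟩ := exists_factorSystem (F := F) (θ := θ) hsc hker hran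
  obtain ⟨hEs, hne, hmin⟩ := hsimple E hE
  have hQp : IsPGroup p (⊤ : Subgroup (S ⧸ Z)) := IsFactorSystem.isPGroup hS hE
  haveI : Finite (⊤ : Subgroup (S ⧸ Z)) := inferInstance
  have hQ' : F.IsNormal (Q ⊔ F.center) := IsNormal.sup hQ (central_normal hcen)
  have hQb := image_normal hsc hE hQ' le_sup_right
  have hin := inner_normal hQp hEs hQb
  rcases hmin _ _ hin with h | ⟨h1, h2⟩
  · have hle : Q ≤ F.center := by
      intro q hq
      have hqS := hQ.1 hq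
      have hmem : θ ⟨q, hqS⟩ ∈ imageAlong θ (Q ⊔ F.center) :=
        ⟨⟨q, hqS⟩, Subgroup.mem_subgroupOf.2 (Subgroup.mem_sup_left hq), rfl⟩
      rw [h] at hmem
      exact (hker _).1 (Subgroup.mem_bot.1 hmem)
    refine ⟨hQ.1, fun P φ hφ => ?_⟩
    obtain ⟨ψ, hψ, hv, hw⟩ := hcen.2 P φ hφ
    have hs : P ⊔ Q ≤ P ⊔ F.center := sup_le_sup_left hle P
    exact ⟨ψ.comp (Subgroup.inclusion hs), res_mem F hψ hs, fun x => hv x, fun x => hw ⟨x, hle x.2⟩⟩
  · exfalso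
    have hb : E.hyperfocalSubgroup p = ⊥ :=
      hyp_bot_of_inner (R := imageAlong θ (Q ⊔ F.center)) (hQp.to_le (le_top)) (fun P => (h2 P).symm)
    have ht := hyperfocal_factor hS hF hsc hE
    rw [hb, hhyp] at ht
    apply hne
    rw [eq_bot_iff]
    intro y _
    have hy : y ∈ θ.range := by rw [hran]; trivial
    obtain ⟨s, rfl⟩ := hy
    have : θ s ∈ ((S.subgroupOf S).map θ) := ⟨s, Subgroup.mem_subgroupOf.2 s.2, rfl⟩
    rw [← ht] at this
    exact this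

end

end Cfsg.Agent.Lib.Layer
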