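/-
Subnormal quasisimple subsystems centralize normal subgroups.
-/
import Cfsg.Agent.Lib.Layer.Quasi
import Mathlib

set_option autoImplicit false

namespace Cfsg.Agent.Lib.Layer

open Cfsg Cfsg.FusionSystem Cfsg.Agent.Lib.Fusion Cfsg.Agent.Lib.FocCent

universe u

variable {Ω : Type u} [Group Ω] {S U T : Subgroup Ω} {F : FusionSystem S} {D : FusionSystem U} {C : FusionSystem T}
  {Q : Subgroup Ω} {p : ℕ} [Fact p.Prime]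

/-- Elements of `gamQ` with trivial bottom term move elements of `P` only by elements centralizing `Q`. -/
theorem gamQ_bot_centralizes [Finite S] (hQ : F.IsNormal Q) {P : Subgroup Ω} (hP : P ≤ S) {β : MulAut P}
    (hβ : β ∈ gamQ F hQ.1 (bot_le : (⊥ : Subgroup Ω) ≤ Q) P hP) (x : P) : (x : Ω)⁻¹ * (β x : P) ∈ centralizerIn S Q := by
  obtain ⟨Ψ, hΨ, hv, hw⟩ := hβ
  have hQc := IsNormal.stronglyClosed hQ
  have hw' : ∀ (q : Ω) (hq : q ∈ Q), ((Ψ ⟨q, Subgroup.mem_sup_right hq⟩ : ↥(P ⊔ Q)) : Ω) = q := by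
    intro q hq
    have h1 := hw ⟨q, hq⟩
    have h2 : (q : Ω)⁻¹ * ((Ψ ⟨q, Subgroup.mem_sup_right hq⟩ : ↥(P ⊔ Q)) : Ω) = 1 := Subgroup.mem_bot.1 h1
    rw [inv_mul_eq_one] at h2
    exact h2.symm
  have hxS := hP x.2
  have hbS := hP (β x).2
  refine mem_centralizerIn.2 ⟨S.mul_mem (S.inv_mem hxS) hbS, fun q hq => ?_⟩
  have hq₁ : (x : Ω) * q * (x : Ω)⁻¹ ∈ Q := T_normal hQc _ hxS q hq
  have e : (⟨x, Subgroup.mem_sup_left x.2⟩ * ⟨q, Subgroup.mem_sup_right hq⟩ * (⟨x, Subgroup.mem_sup_left x.2⟩)⁻¹ : ↥(P ⊔ Q)) =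
      ⟨_, Subgroup.mem_sup_right hq₁⟩ := rfl
  have e2 := congrArg (fun z : ↥(P ⊔ Q) => ((Ψ z : ↥(P ⊔ Q)) : Ω)) e
  simp only [map_mul, map_inv, Subgroup.coe_mul, InvMemClass.coe_inv] at e2
  rw [hw' q hq, hw' _ hq₁, hv x] at e2
  have e3 : ((β x : P) : Ω) * q * ((β x : P) : Ω)⁻¹ = (x : Ω) * q * (x : Ω)⁻¹ := e2
  calc q * ((x : Ω)⁻¹ * ((β x : P) : Ω)) = (x : Ω)⁻¹ * ((x : Ω) * q * (x : Ω)⁻¹) * ((β x : P) : Ω) := by group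
    _ = (x : Ω)⁻¹ * (((β x : P) : Ω) * q * ((β x : P) : Ω)⁻¹) * ((β x : P) : Ω) := by rw [e3]
    _ = ((x : Ω)⁻¹ * ((β x : P) : Ω)) * q := by group

/-- `p'`-automorphisms of a subsystem centralizing `Q ∩ U` in `D` lift to `P ⊔ Q`, fixing `Q`. -/
theorem pprime_mem_gamQ [Finite S] (hS : IsPGroup p S) (hD : D.IsNormalIn F p) (hQ : F.IsNormal Q)
    {P : Subgroup Ω} (hPS : P ≤ S) {g : MulAut P} (hg : P.subtype.comp g.toMonoidHom ∈ D.centralizerHom (Q ⊓ U) P)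
    (hord : (orderOf g).Coprime p) : g ∈ gamQ F hQ.1 (bot_le : (⊥ : Subgroup Ω) ≤ Q) P hPS := by
  have hp := (Fact.out : p.Prime)
  have hsc : F.StronglyClosed U := hD.1.2.2.2.1
  have hQS := hQ.1
  have hQc := IsNormal.stronglyClosed hQ
  have hQ₀c : F.StronglyClosed (Q ⊓ U) := inf_stronglyClosed hQc hsc
  haveI : Finite Q := finite_of_le hQS
  haveI : Finite P := finite_of_le hPS
  haveI : Finite (MulAut P) := finite_mulAut _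
  obtain ⟨-, -, -, ψ₀, hψ₀, h1, h2⟩ := hg
  obtain ⟨ψ₁, hψ₁, ha, hb⟩ := adapted hS hQ hD _ ψ₀ hψ₀
  have hXS : P ⊔ (Q ⊓ U) ⊔ Q ≤ S := sup_le (sup_le hPS (inf_le_left.trans hQS)) hQS
  haveI : Finite ↥(P ⊔ (Q ⊓ U) ⊔ Q) := finite_of_le hXS
  haveI : Finite (MulAut ↥(P ⊔ (Q ⊓ U) ⊔ Q)) := finite_mulAut _
  have h1' : ∀ (x : Ω) (hx : x ∈ P), ψ₀ ⟨x, Subgroup.mem_sup_left hx⟩ = (g ⟨x, hx⟩ : P) := fun x hx => h1 ⟨x, hx⟩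
  have h2' : ∀ (z : Ω) (hz : z ∈ Q ⊓ U), ψ₀ ⟨z, Subgroup.mem_sup_right hz⟩ = z := fun z hz => h2 ⟨z, hz⟩
  have ha' : ∀ (x : Ω) (hx : x ∈ P ⊔ (Q ⊓ U)), ψ₁ ⟨x, Subgroup.mem_sup_left hx⟩ = ψ₀ ⟨x, hx⟩ := fun x hx => ha ⟨x, hx⟩
  have hb' : ∀ (q : Ω) (hq : q ∈ Q), q⁻¹ * ψ₁ ⟨q, Subgroup.mem_sup_right hq⟩ ∈ Q ⊓ U := fun q hq => hb ⟨q, hq⟩
  have hvQ : ∀ (q : Ω) (hq : q ∈ Q), ψ₁ ⟨q, Subgroup.mem_sup_right hq⟩ ∈ Q := fun q hq => by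
    have := Q.mul_mem hq (hb' q hq).1
    simpa using this
  have hv : ∀ y, ψ₁ y ∈ P ⊔ (Q ⊓ U) ⊔ Q := by
    refine map_sup_mem (fun x hx => ?_) (fun q hq => Subgroup.mem_sup_right (hvQ q hq))
    rw [ha' x hx]
    refine Subgroup.mem_sup_left ?_
    revert x
    refine fun x hx => ?_
    have : ∀ y, ψ₀ y ∈ P ⊔ (Q ⊓ U) := by
      refine map_sup_mem (fun x hx => ?_) (fun z hz => ?_)
      · rw [h1' x hx]
        exact Subgroup.mem_sup_left (g _).2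
      · rw [h2' z hz]
        exact Subgroup.mem_sup_right hz
    exact this _
  obtain ⟨B₀, hB₀, hB₀v⟩ := exists_aut_of_map hψ₁ hv
  have inP : P ≤ P ⊔ (Q ⊓ U) ⊔ Q := le_sup_left.trans le_sup_left
  have inZ : Q ⊓ U ≤ P ⊔ (Q ⊓ U) ⊔ Q := le_sup_right.trans le_sup_left
  have inQ : Q ≤ P ⊔ (Q ⊓ U) ⊔ Q := le_sup_right
  have hB₀P : ∀ x : P, ((B₀ ⟨x, inP x.2⟩ : ↥(P ⊔ (Q ⊓ U) ⊔ Q)) : Ω) = (g x : P) := fun x => by
    rw [hB₀v]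
    exact (ha' x (Subgroup.mem_sup_left x.2)).trans (h1' x x.2)
  have hB₀Z : ∀ (z : Ω) (hz : z ∈ Q ⊓ U), ((B₀ ⟨z, inZ hz⟩ : ↥(P ⊔ (Q ⊓ U) ⊔ Q)) : Ω) = z := fun z hz => by
    rw [hB₀v]
    exact (ha' z (Subgroup.mem_sup_right hz)).trans (h2' z hz)
  have hB₀Q : ∀ (q : Ω) (hq : q ∈ Q), q⁻¹ * ((B₀ ⟨q, inQ hq⟩ : ↥(P ⊔ (Q ⊓ U) ⊔ Q)) : Ω) ∈ Q ⊓ U := fun q hq => by
    rw [hB₀v]
    exact hb' q hq
  have hpow : ∀ n : ℕ, (∀ x : P, (((B₀ ^ n) ⟨x, inP x.2⟩ : ↥(P ⊔ (Q ⊓ U) ⊔ Q)) : Ω) = ((g ^ n) x : P)) ∧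
      (∀ (z : Ω) (hz : z ∈ Q ⊓ U), (((B₀ ^ n) ⟨z, inZ hz⟩ : ↥(P ⊔ (Q ⊓ U) ⊔ Q)) : Ω) = z) ∧
      (∀ (q : Ω) (hq : q ∈ Q), q⁻¹ * (((B₀ ^ n) ⟨q, inQ hq⟩ : ↥(P ⊔ (Q ⊓ U) ⊔ Q)) : Ω) ∈ Q ⊓ U) := by
    intro n
    induction n with
    | zero =>
      refine ⟨fun x => by simp, fun z hz => by simp, fun q hq => ?_⟩
      simp [Subgroup.one_mem]
    | succ n ih =>
      obtain ⟨h3, h4, h5⟩ := ih
      refine ⟨fun x => ?_, fun z hz => ?_, fun q hq => ?_⟩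
      · rw [pow_succ', MulAut.mul_apply, pow_succ', MulAut.mul_apply]
        have e : ((B₀ ^ n) ⟨x, inP x.2⟩ : ↥(P ⊔ (Q ⊓ U) ⊔ Q)) = ⟨((g ^ n) x : P), inP ((g ^ n) x).2⟩ := Subtype.ext (h3 x)
        rw [e]
        exact hB₀P _
      · rw [pow_succ', MulAut.mul_apply]
        have e : ((B₀ ^ n) ⟨z, inZ hz⟩ : ↥(P ⊔ (Q ⊓ U) ⊔ Q)) = ⟨z, inZ hz⟩ := Subtype.ext (h4 z hz)
        rw [e]
        exact hB₀Z z hz
      · rw [pow_succ', MulAut.mul_apply]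
        have h6 := h5 q hq
        set q₁ : Ω := (((B₀ ^ n) ⟨q, inQ hq⟩ : ↥(P ⊔ (Q ⊓ U) ⊔ Q)) : Ω) with hq₁
        have hq₁Q : q₁ ∈ Q := by
          have := Q.mul_mem hq h6.1
          simpa using this
        have h7 := hB₀Q q₁ hq₁Q
        have e : q⁻¹ * ((B₀ ⟨q₁, inQ hq₁Q⟩ : ↥(P ⊔ (Q ⊓ U) ⊔ Q)) : Ω) = (q⁻¹ * q₁) * (q₁⁻¹ * ((B₀ ⟨q₁, inQ hq₁Q⟩ : ↥(P ⊔ (Q ⊓ U) ⊔ Q)) : Ω)) := by
          group
        have e0 : ((B₀ ^ n) ⟨q, inQ hq⟩ : ↥(P ⊔ (Q ⊓ U) ⊔ Q)) = ⟨q₁, inQ hq₁Q⟩ := rfl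
        rw [e0, e]
        exact Subgroup.mul_mem _ h6 h7
  obtain ⟨m, hm, hgm⟩ := exists_pp_power hp B₀ hord
  obtain ⟨hBP, hBZ, hBQ⟩ := hpow m
  have hBm : (P ⊔ (Q ⊓ U) ⊔ Q).subtype.comp (B₀ ^ m).toMonoidHom ∈ F.Hom (P ⊔ (Q ⊓ U) ⊔ Q) :=
    (mem_autGroup_iff hXS).1 (Subgroup.pow_mem _ hB₀ _)
  have hBQv : ∀ (q : Ω) (hq : q ∈ Q), (((B₀ ^ m) ⟨q, inQ hq⟩ : ↥(P ⊔ (Q ⊓ U) ⊔ Q)) : Ω) ∈ Q := fun q hq => by
    have := Q.mul_mem hq (hBQ q hq).1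
    simpa using this
  have hstab := stable_coprime (A := Q.subgroupOf (P ⊔ (Q ⊓ U) ⊔ Q)) (A₀ := ⊥) hp
    ((hS.to_le hQS).comap_of_injective (P ⊔ (Q ⊓ U) ⊔ Q).subtype (P ⊔ (Q ⊓ U) ⊔ Q).subtype_injective)
    (fun a _ n hn => by
      rw [Subgroup.mem_bot.1 hn]
      simp [Subgroup.one_mem]) (B₀ ^ m)
    (fun n hn => by
      rw [Subgroup.mem_bot.1 hn]
      simp [Subgroup.one_mem])
    (fun a ha => Subgroup.mem_subgroupOf.2 (hBQv _ (Subgroup.mem_subgroupOf.1 ha)))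
    (fun a ha => by
      have ha' : (a : Ω) ∈ Q := Subgroup.mem_subgroupOf.1 ha
      have h6 := hBQ a ha'
      have h7 := hBZ _ h6
      have e : ((a⁻¹ * (B₀ ^ m) a)) = ⟨_, inZ h6⟩ := rfl
      rw [e, show (B₀ ^ m) ⟨_, inZ h6⟩ = ⟨_, inZ h6⟩ from Subtype.ext h7]
      simp [Subgroup.one_mem]) hm
  have hfix : ∀ (q : Ω) (hq : q ∈ Q), (((B₀ ^ m) ⟨q, inQ hq⟩ : ↥(P ⊔ (Q ⊓ U) ⊔ Q)) : Ω) = q := by
    intro q hq
    have h6 := hstab ⟨q, inQ hq⟩ (Subgroup.mem_subgroupOf.2 hq)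
    have h7 : (⟨q, inQ hq⟩ : ↥(P ⊔ (Q ⊓ U) ⊔ Q))⁻¹ * (B₀ ^ m) ⟨q, inQ hq⟩ = 1 := Subgroup.mem_bot.1 h6
    rw [inv_mul_eq_one] at h7
    exact (congrArg (fun z : ↥(P ⊔ (Q ⊓ U) ⊔ Q) => (z : Ω)) h7).symm
  have hle : P ⊔ Q ≤ P ⊔ (Q ⊓ U) ⊔ Q := sup_le inP inQ
  have hres := res_mem F hBm hle
  have hval : ∀ y, ((P ⊔ (Q ⊓ U) ⊔ Q).subtype.comp (B₀ ^ m).toMonoidHom).comp (Subgroup.inclusion hle) y ∈ P ⊔ Q := by
    refine map_sup_mem (fun x hx => ?_) (fun q hq => ?_)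
    · show (((B₀ ^ m) ⟨x, inP hx⟩ : ↥(P ⊔ (Q ⊓ U) ⊔ Q)) : Ω) ∈ P ⊔ Q
      rw [hBP ⟨x, hx⟩, hgm]
      exact Subgroup.mem_sup_left (g _).2
    · show (((B₀ ^ m) ⟨q, inQ hq⟩ : ↥(P ⊔ (Q ⊓ U) ⊔ Q)) : Ω) ∈ P ⊔ Q
      rw [hfix q hq]
      exact Subgroup.mem_sup_right hq
  obtain ⟨Ψ, hΨ, hΨv⟩ := exists_aut_of_map hres hval
  refine ⟨Ψ, hΨ, fun x => ?_, fun q => ?_⟩
  · rw [hΨv]
    show (((B₀ ^ m) ⟨x, inP x.2⟩ : ↥(P ⊔ (Q ⊓ U) ⊔ Q)) : Ω) = _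
    rw [hBP x, hgm]
  · rw [hΨv]
    show (q : Ω)⁻¹ * (((B₀ ^ m) ⟨q, inQ q.2⟩ : ↥(P ⊔ (Q ⊓ U) ⊔ Q)) : Ω) ∈ _
    rw [hfix q q.2, inv_mul_cancel]
    exact Subgroup.one_mem _

/-- The main step. -/
theorem step_core [Finite S] (hS : IsPGroup p S) (hD : D.IsNormalIn F p) (hq : C.Quasisimple p)
    (hCD : ∀ Q₁, D.IsNormal Q₁ → ∀ P, C.Hom P ⊆ D.centralizerHom Q₁ P) (hQ : F.IsNormal Q) :
    ∀ P, C.Hom P ⊆ F.centralizerHom Q P := by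
  have hQ₀ := normal_inf hS hQ hD
  have hC₀ := hCD _ hQ₀
  have hsc : F.StronglyClosed U := hD.1.2.2.2.1
  have hUS := hsc.1
  have hQS := hQ.1
  have hTU : T ≤ U := hom_le D (hC₀ T (C.conj_mem le_rfl T.one_mem)).1
  have hTS := hTU.trans hUS
  haveI : Finite T := finite_of_le hTS
  have hTp : IsPGroup p T := hS.to_le hTS
  obtain ⟨hCs, hhyp, -⟩ := hq
  have hres : ∀ {P : Subgroup Ω} (hPT : P ≤ T) (β : C.autGroup P), β ∈ pResidual p (C.autGroup P) →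
      (β : MulAut P) ∈ gamQ F hQS (bot_le : (⊥ : Subgroup Ω) ≤ Q) P (hPT.trans hTS) := by
    intro P hPT β hβ
    induction hβ using Subgroup.closure_induction with
    | mem g hg =>
      have hg' : (orderOf (g : MulAut P)).Coprime p := by
        rw [Subgroup.orderOf_coe]
        exact hg
      exact pprime_mem_gamQ hS hD hQ _ (hC₀ P ((mem_autGroup_iff hPT).1 g.2)) hg'
    | one => exact Subgroup.one_mem _
    | mul x y _ _ hx hy => exact Subgroup.mul_mem _ hx hy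
    | inv x _ hx => exact Subgroup.inv_mem _ hx
  have hTR : T ≤ centralizerIn S Q := by
    have h1 : C.hyperfocalSubgroup p ≤ centralizerIn S Q := by
      rw [hyperfocalSubgroup, Subgroup.closure_le]
      rintro _ ⟨P, α, x, hP, hα, rfl⟩
      exact gamQ_bot_centralizes hQ _ (hres hP α hα) x
    exact hhyp.ge.trans h1
  obtain ⟨G, hG⟩ := Cfsg.Agent.S5097.result F Q hQS
  have hclosed : ClosedClass C (fun P φ => φ ∈ G.Hom P) :=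
    { conj := fun P g hP hg => G.conj_mem (hP.trans hTR) (hTR hg)
      comp := fun P R φ ψ _ _ h1 h2 h => G.comp_mem h1 h2 h
      inv := by
        intro P φ ψ hφ h1 hψ hv
        obtain ⟨θ, hθ, hθv⟩ := G.inv_mem h1
        refine hom_congr G hθ ?_
        rintro ⟨_, x, rfl⟩
        exact (hv x).trans (hθv x).symm }
  have hmain : ∀ (P : Subgroup Ω) (φ : P →* Ω), φ ∈ C.Hom P → φ ∈ G.Hom P := by
    refine ClosedClass.fn_induction hclosed hTp hCs fun P hP IH α hα => ?_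
    have hPT : P ≤ T := hP.1
    have hPR := hPT.trans hTR
    have hPS := hPT.trans hTS
    have hXS : P ⊔ Q ≤ S := sup_le hPS hQS
    obtain ⟨s, hs, β, hβ, hv⟩ := exists_conj_mul_residual hTp hCs hP ⟨α, hα⟩
    have hsT : s ∈ T := (mem_normalizerIn.1 hs).1
    have hsN := (mem_normalizerIn.1 hs).2
    have e : α = conjAut P s hsN * (β : MulAut P) := by
      ext x
      exact hv x
    have hb : (β : MulAut P) ∈ G.autGroup P := by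
      obtain ⟨Ψ, hΨ, hΨv, hΨw⟩ := hres hPT β hβ
      have hΨm : (P ⊔ Q).subtype.comp Ψ.toMonoidHom ∈ F.Hom (P ⊔ Q) := (mem_autGroup_iff hXS).1 hΨ
      refine (mem_autGroup_iff hPR).2 ?_
      show P.subtype.comp (β : MulAut P).toMonoidHom ∈ G.Hom P
      rw [hG P]
      refine ⟨hom_congr F (res_mem F hΨm (le_sup_left : P ≤ P ⊔ Q)) (fun x => (hΨv x).symm), hPR,
        fun x => hPR ((β : MulAut P) x).2, _, hΨm, fun x => hΨv x, fun q => ?_⟩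
      have h1 : (q : Ω)⁻¹ * ((Ψ ⟨q, Subgroup.mem_sup_right q.2⟩ : ↥(P ⊔ Q)) : Ω) = 1 := Subgroup.mem_bot.1 (hΨw q)
      rw [inv_mul_eq_one] at h1
      exact h1.symm
    have hc : conjAut P s hsN ∈ G.autGroup P := autInducedBy_le_autGroup G hPR (conjAut_mem (hTR hsT) hsN)
    have h3 : α ∈ G.autGroup P := by
      rw [e]
      exact Subgroup.mul_mem _ hc hb
    exact (mem_autGroup_iff hPR).1 h3
  intro P φ hφ
  have := hmain P φ hφ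
  rwa [hG P] at this

/-- **A subnormal quasisimple subsystem centralizes normal subgroups.** -/
theorem sub_central {Ω₁ : Type u} [Group Ω₁] {T₁ S₁ : Subgroup Ω₁} {C₁ : FusionSystem T₁} {F₁ : FusionSystem S₁} {r : ℕ}
    (h : C₁.IsSubnormalIn F₁ r) :
    r.Prime → Finite S₁ → IsPGroup r S₁ → F₁.IsSaturated r → C₁.Quasisimple r → ∀ Q₁, F₁.IsNormal Q₁ →
      ∀ P, C₁.Hom P ⊆ F₁.centralizerHom Q₁ P := by
  induction h with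
  | @refl F₂ r₂ =>
    intro hp hfin hS hF hq Q₁ hQ P φ hφ
    haveI : Fact r₂.Prime := ⟨hp⟩
    have hc := quasisimple_central hS hq hQ
    obtain ⟨ψ, hψ, hv, hw⟩ := hc.2 P φ hφ
    have hScent : T₁ ≤ centralizerIn T₁ Q₁ := by
      intro s hs
      refine mem_centralizerIn.2 ⟨hs, fun q hq => ?_⟩
      obtain ⟨ψ₁, -, hv₁, hw₁⟩ := hc.2 T₁ (conjHom T₁ s) (F₂.conj_mem le_rfl hs)
      have h1 : ψ₁ ⟨q, Subgroup.mem_sup_right hq⟩ = s * q * s⁻¹ := hv₁ ⟨q, hc.1 hq⟩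
      have h2 : ψ₁ ⟨q, Subgroup.mem_sup_right hq⟩ = q := hw₁ ⟨q, hq⟩
      rw [h2] at h1
      calc q * s = (s * q * s⁻¹) * s := by rw [← h1]
        _ = s * q := by group
    exact ⟨hφ, (hom_le F₂ hφ).trans hScent, fun x => hScent (hom_val F₂ hφ x), ψ, hψ, hv, hw⟩
  | @step U₂ S₂ C₂ D₂ F₂ r₂ h₁ hD ih =>
    intro hp hfin hS hF hq Q₁ hQ
    haveI : Fact r₂.Prime := ⟨hp⟩
    have hUS := hD.1.2.2.2.1.1
    exact step_core hS hD hq (ih hp (finite_of_le hUS) (hS.to_le hUS) hD.1.1 hq) hQ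

end Cfsg.Agent.Lib.Layer
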